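import Mathlib

set_option autoImplicit false

namespace Cfsg.Agent.Lib.Helper44.SLW

/-- `(q^(k+1) - q)/(q - 1) = q (1 + q + ... + q^(k-1))`, with `q = x + 1`. -/
theorem arith_geom (x k : ℕ) (hx : 1 ≤ x) :
    ((x + 1) ^ (k + 1) - (x + 1)) / (x + 1 - 1) = (x + 1) * ∑ i ∈ Finset.range k, (x + 1) ^ i := by
  have h := geom_sum_mul_add x k
  have h1 : (x + 1) ^ (k + 1) - (x + 1) = ((x + 1) * ∑ i ∈ Finset.range k, (x + 1) ^ i) * x := by
    rw [pow_succ, ← h]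
    have : ((∑ i ∈ Finset.range k, (x + 1) ^ i) * x + 1) * (x + 1) =
        ((x + 1) * ∑ i ∈ Finset.range k, (x + 1) ^ i) * x + (x + 1) := by ring
    rw [this, Nat.add_sub_cancel]
  rw [h1, Nat.add_sub_cancel, Nat.mul_div_cancel _ (by omega)]

/-- RUNG N (1). -/
theorem arith_excl (q n D : ℕ) (hq : 2 ≤ q) (hn : 3 ≤ n) (hD : D + 1 = (q ^ n - q) / (q - 1)) :
    ¬ D ∣ (q ^ n - 1) * (q ^ (n - 1) - 1) * q ^ (n - 1) := by
  obtain ⟨x, rfl⟩ : ∃ x, q = x + 1 := ⟨q - 1, by omega⟩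
  obtain ⟨k, rfl⟩ : ∃ k, n = k + 1 := ⟨n - 1, by omega⟩
  have hx : 1 ≤ x := by omega
  have hk : 2 ≤ k := by omega
  rw [arith_geom x k hx] at hD
  rw [Nat.add_sub_cancel]
  set N := ∑ i ∈ Finset.range k, (x + 1) ^ i with hN
  have h1 : (x + 1) ^ k - 1 = N * x := by
    rw [← geom_sum_mul_add x k, Nat.add_sub_cancel]
  have h2 : (x + 1) ^ (k + 1) - 1 = (D + 2) * x := by
    rw [← geom_sum_mul_add x (k + 1), Nat.add_sub_cancel, geom_sum_succ, ← hN, ← hD]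
    rfl
  rw [h1, h2]
  intro hdvd
  have hc0 : Nat.Coprime D (D + 1) := by simp
  have hcq : Nat.Coprime D (x + 1) := hc0.coprime_dvd_right ⟨N, hD⟩
  have hcN : Nat.Coprime D N := hc0.coprime_dvd_right ⟨x + 1, by rw [hD]; ring⟩
  have hd1 : D ∣ (D + 2) * x * (N * x) := (hcq.pow_right k).dvd_of_dvd_mul_right hdvd
  have hd2 : D ∣ ((D + 2) * x * x) * N := by
    have : (D + 2) * x * (N * x) = ((D + 2) * x * x) * N := by ring
    rwa [this] at hd1
  have hd3 : D ∣ (D + 2) * x * x := hcN.dvd_of_dvd_mul_right hd2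
  have hd4 : D ∣ 2 * x * x := by
    have : (D + 2) * x * x = D * (x * x) + 2 * x * x := by ring
    rw [this] at hd3
    exact (Nat.dvd_add_right (dvd_mul_right D _)).mp hd3
  have hpos : 0 < 2 * x * x := by positivity
  have hle : D ≤ 2 * x * x := Nat.le_of_dvd hpos hd4
  rcases Nat.lt_or_ge k 3 with hk3 | hk3
  · obtain rfl : k = 2 := by omega
    have hN2 : N = 1 + (x + 1) := by
      rw [hN]; simp [Finset.sum_range_succ]
    rw [hN2] at hD
    have hd5 : D ∣ 6 * x + 2 := by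
      have : 2 * D = 2 * x * x + (6 * x + 2) := by nlinarith
      have h3 : D ∣ 2 * x * x + (6 * x + 2) := this ▸ dvd_mul_left D 2
      exact (Nat.dvd_add_right hd4).mp h3
    have hle2 : D ≤ 6 * x + 2 := Nat.le_of_dvd (by omega) hd5
    have hx3 : x ≤ 3 := by
      by_contra hcon
      have : 4 ≤ x := by omega
      nlinarith
    clear hdvd hd1 hd2 hd3 h1 h2 hcN hN2 hN
    interval_cases x <;> omega
  · have hN3 : 1 + (x + 1) + (x + 1) ^ 2 ≤ N := by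
      have : ∑ i ∈ Finset.range 3, (x + 1) ^ i ≤ N :=
        Finset.sum_le_sum_of_subset (Finset.range_subset_range.mpr hk3)
      simpa [Finset.sum_range_succ] using this
    have : (x + 1) * (1 + (x + 1) + (x + 1) ^ 2) ≤ D + 1 := by
      rw [hD]; exact Nat.mul_le_mul_left _ hN3
    nlinarith

/-- RUNG N (2). -/
theorem arith_two (q m : ℕ) (hq : 2 ≤ q) (hm : 1 ≤ m) :
    (q ^ (m + 1) - q) / (q - 1) ≤ 2 * (q ^ m - 1) := by
  obtain ⟨x, rfl⟩ : ∃ x, q = x + 1 := ⟨q - 1, by omega⟩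
  have hx : 1 ≤ x := by omega
  rw [arith_geom x m hx, ← geom_sum_mul_add x m, Nat.add_sub_cancel]
  set N := ∑ i ∈ Finset.range m, (x + 1) ^ i
  nlinarith

/-- RUNG N (3). -/
theorem arith_step (q m : ℕ) (hq : 2 ≤ q) (hm : 1 ≤ m) :
    (q ^ (m + 1) - q) / (q - 1) = (q ^ m - 1) + (q ^ m - q) / (q - 1) + 1 := by
  obtain ⟨x, rfl⟩ : ∃ x, q = x + 1 := ⟨q - 1, by omega⟩
  obtain ⟨k, rfl⟩ : ∃ k, m = k + 1 := ⟨m - 1, by omega⟩
  have hx : 1 ≤ x := by omega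
  rw [arith_geom x (k + 1) hx, arith_geom x k hx, Finset.sum_range_succ]
  have hpos : 1 ≤ (x + 1) ^ (k + 1) := Nat.one_le_pow _ _ (by omega)
  have : (x + 1) * (∑ i ∈ Finset.range k, (x + 1) ^ i + (x + 1) ^ k) =
      (x + 1) * ∑ i ∈ Finset.range k, (x + 1) ^ i + (x + 1) ^ (k + 1) := by ring
  rw [this]
  omega

end Cfsg.Agent.Lib.Helper44.SLW
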