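import Mathlib
import Cfsg.Agent.Lib.Helper44.SLW.Defs
import Cfsg.Agent.Lib.Helper44.SLW.Stab

/-!
# Ladder SLWEIL: weights of `rad`
-/

set_option autoImplicit false
set_option linter.unusedSectionVars false

namespace Cfsg.Agent.Lib.Helper44.SLW

open Matrix
open Cfsg.Agent.Lib.Helper5.MinIdx
open Cfsg.Agent.Lib.Helper18.AutPSL

variable {F : Type*} [Field F] {m : ℕ}

theorem rad_apply (y : Fin m → F) (i : Fin m) : (rad y).1 0 i.succ = y i := by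
  unfold rad
  rw [tr_val (cons_zero_dot_e0 y)]
  simp [vecMulVec_apply, e0, (Fin.succ_ne_zero i).symm]

theorem rad_injective : Function.Injective (rad (F := F) (m := m)) := by
  intro x y h
  funext i
  rw [← rad_apply x i, ← rad_apply y i, h]

theorem cons_zero_tail {v : Fin (m + 1) → F} (h : v 0 = 0) : (Fin.cons 0 (Fin.tail v) : Fin (m + 1) → F) = v := by
  rw [← h]; exact Fin.cons_self_tail v

theorem dot_e0 (v : Fin (m + 1) → F) : v ⬝ᵥ e0 = v 0 := by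
  simp [e0]

theorem inv_mulVec_e0 (g : SpecialLinearGroup (Fin (m + 1)) F) (s : F) (hs : s ≠ 0)
    (hg : g.1 *ᵥ e0 = s • e0) : (g⁻¹).1 *ᵥ e0 = s⁻¹ • (e0 : Fin (m + 1) → F) := by
  have : (g⁻¹).1 *ᵥ (g.1 *ᵥ e0) = (e0 : Fin (m + 1) → F) := by
    rw [mulVec_mulVec, inv_mul_val, one_mulVec]
  rw [hg, mulVec_smul] at this
  calc (g⁻¹).1 *ᵥ e0 = s⁻¹ • (s • ((g⁻¹).1 *ᵥ e0)) := by
        rw [smul_smul, inv_mul_cancel₀ hs, one_smul]
    _ = s⁻¹ • e0 := by rw [this]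

theorem first_zero (g : SpecialLinearGroup (Fin (m + 1)) F) (s : F) (hs : s ≠ 0)
    (hg : g.1 *ᵥ e0 = s • e0) (y : Fin m → F) :
    (s • ((Fin.cons 0 y : Fin (m + 1) → F) ᵥ* (g⁻¹).1)) 0 = 0 := by
  have h := dot_e0 (s • ((Fin.cons 0 y : Fin (m + 1) → F) ᵥ* (g⁻¹).1))
  rw [← h, smul_dotProduct, ← Matrix.dotProduct_mulVec, inv_mulVec_e0 g s hs hg, dotProduct_smul,
    cons_zero_dot_e0]
  simp

/-- conjugation of `rad` by an element fixing the line of `e0` -/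
theorem conj_rad (g : SpecialLinearGroup (Fin (m + 1)) F) (s : F) (hs : s ≠ 0)
    (hg : g.1 *ᵥ e0 = s • e0) (y : Fin m → F) :
    g * rad y = rad (Fin.tail (s • ((Fin.cons 0 y : Fin (m + 1) → F) ᵥ* (g⁻¹).1))) * g := by
  have h1 : (g⁻¹).1 *ᵥ e0 = s⁻¹ • (e0 : Fin (m + 1) → F) := inv_mulVec_e0 g s hs hg
  have h0 : (s • ((Fin.cons 0 y : Fin (m + 1) → F) ᵥ* (g⁻¹).1)) 0 = 0 := first_zero g s hs hg y
  have h2 := conj_tr g e0 (Fin.cons 0 y : Fin (m + 1) → F)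
  rw [hg, tr_smul] at h2
  unfold rad
  rw [cons_zero_tail h0, ← h2, inv_mul_cancel_right]

section weights

variable [Fintype F] [DecidableEq F] {d : ℕ} (ψ : AddChar F ℂ)
  (R : SpecialLinearGroup (Fin (m + 1)) F →* Matrix (Fin d) (Fin d) ℂ)

/-- RUNG CONJE. -/
theorem conj_EE (g : SpecialLinearGroup (Fin (m + 1)) F) (s : F) (hs : s ≠ 0)
    (hg : g.1 *ᵥ e0 = s • e0) (c c' : Fin m → F) (z : F)
    (hc : g.1 *ᵥ (Fin.cons 0 c : Fin (m + 1) → F) = s • (Fin.cons 0 c' : Fin (m + 1) → F) + z • e0) :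
    R g * EE ψ R c = EE ψ R c' * R g := by
  set T : (Fin m → F) → (Fin m → F) :=
    fun y => Fin.tail (s • ((Fin.cons 0 y : Fin (m + 1) → F) ᵥ* (g⁻¹).1)) with hT
  have hgT : ∀ y, g * rad y = rad (T y) * g := conj_rad g s hs hg
  have hTi : Function.Injective T := by
    intro y y' hy
    apply rad_injective
    have h1 := hgT y
    rw [hy, ← hgT y'] at h1
    exact mul_left_cancel h1
  have hTb : Function.Bijective T := Finite.injective_iff_bijective.mp hTi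
  have h1 : (g⁻¹).1 *ᵥ e0 = s⁻¹ • (e0 : Fin (m + 1) → F) := inv_mulVec_e0 g s hs hg
  have hdot : ∀ y, c' ⬝ᵥ T y = c ⬝ᵥ y := by
    intro y
    have h0 : (s • ((Fin.cons 0 y : Fin (m + 1) → F) ᵥ* (g⁻¹).1)) 0 = 0 := first_zero g s hs hg y
    have e1 : c' ⬝ᵥ T y = (Fin.cons 0 c' : Fin (m + 1) → F) ⬝ᵥ
        (s • ((Fin.cons 0 y : Fin (m + 1) → F) ᵥ* (g⁻¹).1)) := by
      rw [← cons_zero_tail h0, cons_dot_cons]
      simp [hT]
    have e2 : s • (Fin.cons 0 c' : Fin (m + 1) → F) = g.1 *ᵥ (Fin.cons 0 c : Fin (m + 1) → F) - z • e0 := by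
      rw [hc, add_sub_cancel_right]
    rw [e1, dotProduct_smul, ← smul_dotProduct, e2, sub_dotProduct, dotProduct_comm,
      ← Matrix.dotProduct_mulVec, mulVec_mulVec, inv_mul_val, one_mulVec, cons_dot_cons,
      smul_dotProduct, dotProduct_comm e0, ← Matrix.dotProduct_mulVec, h1, dotProduct_smul,
      cons_zero_dot_e0, dotProduct_comm]
    simp
  unfold EE eOp wOp
  rw [Matrix.mul_smul, Matrix.smul_mul]
  congr 1
  rw [Finset.mul_sum, Finset.sum_mul,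
    ← hTb.sum_comp (fun y => ψ (-(c' ⬝ᵥ y)) • R (rad y) * R g)]
  refine Finset.sum_congr rfl fun y _ => ?_
  rw [Matrix.mul_smul, Matrix.smul_mul, ← map_mul, ← map_mul, hgT, hdot]

theorem lev_mul_EE (A : SpecialLinearGroup (Fin m) F) (c : Fin m → F) :
    R (lev A) * EE ψ R c = EE ψ R (A.1 *ᵥ c) * R (lev A) := by
  refine conj_EE ψ R (lev A) 1 one_ne_zero ?_ c _ 0 ?_
  · rw [e0_eq_cons, lev_mulVec, mulVec_zero, one_smul]
  · rw [lev_mulVec, one_smul, zero_smul, add_zero]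

variable {ψ}

theorem EE_idem (hψ : ψ.IsPrimitive) (c : Fin m → F) : EE ψ R c * EE ψ R c = EE ψ R c :=
  eOp_idem rad R hψ rad_add c

theorem EE_orth (hψ : ψ.IsPrimitive) {c c' : Fin m → F} (h : c ≠ c') : EE ψ R c' * EE ψ R c = 0 := by
  unfold EE eOp
  rw [Matrix.smul_mul, Matrix.mul_smul, wOp_mul_wOp rad R hψ rad_add, if_neg h, zero_smul, smul_zero,
    smul_zero]

theorem sum_EE (hψ : ψ.IsPrimitive) : ∑ c, EE ψ R c = 1 := sum_eOp rad R hψ rad_add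

theorem rad_mul_EE (c y : Fin m → F) : R (rad y) * EE ψ R c = ψ (c ⬝ᵥ y) • EE ψ R c :=
  map_mul_eOp ψ rad R rad_add c y

theorem trace_EE (hψ : ψ.IsPrimitive) (c : Fin m → F) : (EE ψ R c).trace = ((EE ψ R c).rank : ℂ) :=
  trace_eq_rank_of_idem _ (EE_idem R hψ c)

theorem rank_EE_lev (hψ : ψ.IsPrimitive) (A : SpecialLinearGroup (Fin m) F) (c : Fin m → F) :
    (EE ψ R (A.1 *ᵥ c)).rank = (EE ψ R c).rank := by
  have h : EE ψ R (A.1 *ᵥ c) = R (lev A) * EE ψ R c * R (lev A)⁻¹ := by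
    rw [lev_mul_EE, mul_assoc, ← map_mul, mul_inv_cancel, map_one, mul_one]
  have h2 : ((EE ψ R (A.1 *ᵥ c)).rank : ℂ) = ((EE ψ R c).rank : ℂ) := by
    rw [← trace_EE R hψ, ← trace_EE R hψ, h, trace_mul_comm, ← mul_assoc, ← map_mul, inv_mul_cancel,
      map_one, one_mul]
  exact_mod_cast h2

end weights

end Cfsg.Agent.Lib.Helper44.SLW
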