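import Mathlib
import Cfsg.Agent.Lib.Helper44.SLW.Core1

/-!
# Ladder SLWEIL: multiplicities of the weights of `rad`
-/

set_option autoImplicit false
set_option linter.unusedSectionVars false

namespace Cfsg.Agent.Lib.Helper44.SLW

open Matrix
open Cfsg.Agent.Lib.Helper5.MinIdx
open Cfsg.Agent.Lib.Helper18.AutPSL

variable {F : Type*} [Field F] [Fintype F] [DecidableEq F] {m d : ℕ} {ψ : AddChar F ℂ}

/-- the matrix form of a representation -/
noncomputable def matRep {G : Type*} [Group G] {k : ℕ} (ρ : Representation ℂ G (Fin k → ℂ)) :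
    G →* Matrix (Fin k) (Fin k) ℂ :=
  ((LinearMap.toMatrixAlgEquiv' (R := ℂ) (n := Fin k)).toAlgHom.toRingHom.toMonoidHom).comp ρ

theorem trace_matRep {G : Type*} [Group G] {k : ℕ} (ρ : Representation ℂ G (Fin k → ℂ)) (g : G) :
    (matRep ρ g).trace = ρ.character g := by
  show (LinearMap.toMatrix' (ρ g)).trace = LinearMap.trace ℂ _ (ρ g)
  rw [LinearMap.trace_eq_matrix_trace ℂ (Pi.basisFun ℂ (Fin k)), LinearMap.toMatrix_eq_toMatrix']

theorem trace_rad (hψ : ψ.IsPrimitive)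
    (R : SpecialLinearGroup (Fin (m + 1)) F →* Matrix (Fin d) (Fin d) ℂ) (y : Fin m → F) :
    (R (rad y)).trace = ∑ c, ψ (c ⬝ᵥ y) * ((EE ψ R c).rank : ℂ) := by
  have h : R (rad y) = ∑ c, ψ (c ⬝ᵥ y) • EE ψ R c := by
    rw [← mul_one (R (rad y)), ← sum_EE R hψ, Finset.mul_sum]
    exact Finset.sum_congr rfl fun c _ => rad_mul_EE R c y
  rw [h, trace_sum]
  refine Finset.sum_congr rfl fun c _ => ?_
  rw [trace_smul, trace_EE R hψ, smul_eq_mul]

/-- RUNG AB. -/
theorem exists_mult (hm : 1 ≤ m) (hψ : ψ.IsPrimitive)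
    (R : SpecialLinearGroup (Fin (m + 2)) F →* Matrix (Fin d) (Fin d) ℂ) :
    ∃ a : ℕ, (∀ c : Fin (m + 1) → F, c ≠ 0 → (EE ψ R c).rank = a) ∧
      d = (EE ψ R 0).rank + a * (Fintype.card F ^ (m + 1) - 1) ∧
      ∀ y : Fin (m + 1) → F, y ≠ 0 → (R (rad y)).trace = ((EE ψ R 0).rank : ℂ) - a := by
  have ha : ∀ c : Fin (m + 1) → F, c ≠ 0 → (EE ψ R c).rank = (EE ψ R e0).rank := by
    intro c hc
    obtain ⟨A, hA⟩ := exists_mulVec_eq m hm c hc
    rw [← hA, rank_EE_lev R hψ]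
  refine ⟨(EE ψ R e0).rank, ha, ?_, ?_⟩
  · have h := sum_rank_eOp rad R hψ rad_add
    rw [← Finset.add_sum_erase _ _ (Finset.mem_univ (0 : Fin (m + 1) → F))] at h
    refine h.symm.trans ?_
    show (EE ψ R 0).rank + ∑ x ∈ Finset.univ.erase 0, (EE ψ R x).rank = _
    congr 1
    rw [Finset.sum_congr rfl (fun c hc => ha c (Finset.ne_of_mem_erase hc)), Finset.sum_const,
      Finset.card_erase_of_mem (Finset.mem_univ _), Finset.card_univ, Fintype.card_fun,
      Fintype.card_fin, smul_eq_mul, mul_comm]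
  · intro y hy
    rw [trace_rad hψ, ← Finset.add_sum_erase _ _ (Finset.mem_univ (0 : Fin (m + 1) → F))]
    have h1 : ∑ c ∈ Finset.univ.erase (0 : Fin (m + 1) → F), ψ (c ⬝ᵥ y) * ((EE ψ R c).rank : ℂ)
        = (∑ c ∈ Finset.univ.erase (0 : Fin (m + 1) → F), ψ (c ⬝ᵥ y)) * ((EE ψ R e0).rank : ℂ) := by
      rw [Finset.sum_mul]
      exact Finset.sum_congr rfl fun c hc => by rw [ha c (Finset.ne_of_mem_erase hc)]
    have h2 := sum_psi_dot hψ y
    rw [if_neg hy, ← Finset.add_sum_erase _ _ (Finset.mem_univ (0 : Fin (m + 1) → F)), zero_dotProduct,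
      AddChar.map_zero_eq_one] at h2
    have h3 : ∑ c ∈ Finset.univ.erase (0 : Fin (m + 1) → F), ψ (c ⬝ᵥ y) = -1 := by
      linear_combination h2
    rw [h1, h3, zero_dotProduct, AddChar.map_zero_eq_one]
    ring

/-- a transvection is conjugate to `rad e0` -/
theorem exists_conj_rad (hm : 1 ≤ m) (u φ : Fin (m + 2) → F) (hu : u ≠ 0) (hφ : φ ≠ 0)
    (h : φ ⬝ᵥ u = 0) : ∃ g : SpecialLinearGroup (Fin (m + 2)) F, g * rad e0 * g⁻¹ = tr u φ := by
  have h1 : (e0 : Fin (m + 2) → F) ≠ 0 := by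
    intro h0
    have := congrFun h0 0
    simp [e0] at this
  have h2 : (Fin.cons 0 e0 : Fin (m + 2) → F) ≠ 0 := by
    intro h0
    have := congrFun h0 1
    rw [show (1 : Fin (m + 2)) = Fin.succ 0 from rfl, Fin.cons_succ] at this
    simp [e0] at this
  obtain ⟨g, hg1, hg2⟩ := exists_conj (by simp; omega) h1 h2 (cons_zero_dot_e0 _) hu hφ h
  refine ⟨g, ?_⟩
  unfold rad
  rw [conj_tr, hg1, hg2]

theorem map_eq_one_of_rad (hm : 1 ≤ m) {M : Type*} [Monoid M]
    (R : SpecialLinearGroup (Fin (m + 2)) F →* M) (h : R (rad e0) = 1)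
    (g : SpecialLinearGroup (Fin (m + 2)) F) : R g = 1 := by
  have : Nontrivial (Fin (m + 2)) := Fin.nontrivial_iff_two_le.mpr (by omega)
  have hk : R.ker = ⊤ := by
    apply eq_top_of_tr
    intro u φ hu
    rw [MonoidHom.mem_ker]
    by_cases h1 : u = 0
    · rw [h1, tr_zero_left, map_one]
    by_cases h2 : φ = 0
    · rw [h2, tr_zero_right, map_one]
    obtain ⟨x, hx⟩ := exists_conj_rad hm u φ h1 h2 hu
    rw [← hx, map_mul, map_mul, h, mul_one, ← map_mul, mul_inv_cancel, map_one]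
  have : g ∈ R.ker := by rw [hk]; trivial
  exact this

end Cfsg.Agent.Lib.Helper44.SLW
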