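import Mathlib
import Cfsg.Agent.Lib.Helper44.SLW.Core2
import Cfsg.Agent.Lib.Helper44.WeilBound1
import Cfsg.Agent.Lib.Helper20.CharBasic

set_option autoImplicit false

namespace Cfsg.Agent.Lib.Helper44.SLW

open Matrix
open Cfsg.Agent.Lib.Helper5.MinIdx

/-- RUNG CHT (helper44). For a character `σ` of `SL_n(q)`, `n ≥ 3`: `σ(1) - σ(t) = a q^(n-1)` on all
transvections `t ≠ 1`, and `a = 0` only if `σ` is constant. -/
theorem char_transvection {F : Type*} [Field F] [Fintype F] [DecidableEq F] (n : ℕ) (hn : 3 ≤ n)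
    (σ : SpecialLinearGroup (Fin n) F → ℂ) (hσ : Cfsg.IsCharacter _ σ) :
    ∃ a : ℕ, (∀ u φ : Fin n → F, u ≠ 0 → φ ≠ 0 → φ ⬝ᵥ u = 0 →
        σ 1 - σ (tr u φ) = (a : ℂ) * (Fintype.card F : ℂ) ^ (n - 1)) ∧
      (a = 0 → ∀ g, σ g = σ 1) := by
  obtain ⟨m, rfl⟩ : ∃ m, n = m + 2 := ⟨n - 2, by omega⟩
  have hm : 1 ≤ m := by omega
  have hcl := Cfsg.Agent.Lib.Helper20.isClassFunction_of_isCharacter hσ
  obtain ⟨d, ρ, rfl⟩ := hσ
  obtain ⟨ψ, hψ⟩ := exists_prim_addChar'' F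
  obtain ⟨a, ha, hd, htr⟩ := exists_mult hm hψ (matRep ρ)
  have he0 : (e0 : Fin (m + 1) → F) ≠ 0 := by
    intro h0
    have := congrFun h0 0
    simp [e0] at this
  have hq : 1 ≤ Fintype.card F ^ (m + 1) := Nat.one_le_pow _ _ Fintype.card_pos
  have h1 : ρ.character 1 = d := by
    rw [← trace_matRep, map_one, trace_one, Fintype.card_fin]
  refine ⟨a, ?_, ?_⟩
  · intro u φ hu hφ h
    obtain ⟨g, hg⟩ := exists_conj_rad hm u φ hu hφ h
    rw [← hg, hcl, ← trace_matRep ρ (rad e0), htr e0 he0, h1]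
    have hd' : (d : ℂ) = ((EE ψ (matRep ρ) 0).rank : ℂ) + a * ((Fintype.card F : ℂ) ^ (m + 1) - 1) := by
      have := congrArg (Nat.cast : ℕ → ℂ) hd
      push_cast [Nat.cast_sub hq] at this
      exact this
    have : m + 2 - 1 = m + 1 := by omega
    rw [this, hd']
    ring
  · intro ha0 g
    have h2 : matRep ρ (rad e0) = 1 := by
      have h3 : EE ψ (matRep ρ) 0 = 1 := by
        rw [← sum_EE (matRep ρ) hψ, ← Finset.add_sum_erase _ _ (Finset.mem_univ (0 : Fin (m + 1) → F)),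
          Finset.sum_eq_zero, add_zero]
        intro c hc
        apply eq_zero_of_rank_eq_zero
        rw [ha c (Finset.ne_of_mem_erase hc), ha0]
      have h4 := rad_mul_EE (ψ := ψ) (matRep ρ) 0 (e0 : Fin (m + 1) → F)
      rwa [h3, mul_one, zero_dotProduct, AddChar.map_zero_eq_one, one_smul] at h4
    rw [← trace_matRep, ← trace_matRep, map_eq_one_of_rad hm (matRep ρ) h2 g, map_one]

end Cfsg.Agent.Lib.Helper44.SLW
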