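import Mathlib
import Cfsg.Agent.Lib.Helper44.SLW.Defs
import Cfsg.Agent.Lib.Helper44.SLW.Stab
import Cfsg.Agent.Lib.Helper47.SLn

set_option autoImplicit false

namespace Cfsg.Agent.Lib.Helper44.SLW

open Matrix

variable {F : Type*} [Field F]

/-- elements of `SL_{m+2}` which normalise `rad` and fix the weight `e0` -/
def InN {m : ℕ} (g : SpecialLinearGroup (Fin (m + 2)) F) : Prop :=
  ∃ s z : F, s ≠ 0 ∧ g.1 *ᵥ e0 = s • e0 ∧
    g.1 *ᵥ (Fin.cons 0 e0 : Fin (m + 2) → F) = s • (Fin.cons 0 e0 : Fin (m + 2) → F) + z • e0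

section aux

open Matrix.SpecialLinearGroup
open Cfsg.Agent.Lib.Helper47

theorem cons_e0_eq_single {m : ℕ} :
    (Fin.cons 0 e0 : Fin (m + 2) → F) = Pi.single 1 1 := by
  funext k
  refine Fin.cases ?_ (fun k' => ?_) k
  · simp
  · rw [Fin.cons_succ, ← Fin.succ_zero_eq_one, e0]
    by_cases hk : k' = 0
    · subst hk; simp
    · have : k'.succ ≠ Fin.succ 0 := fun h => hk (Fin.succ_injective _ h)
      rw [Pi.single_eq_of_ne hk, Pi.single_eq_of_ne this]

theorem inN_of_smul {m : ℕ} (g : SpecialLinearGroup (Fin (m + 2)) F) (s : F) (hs : s ≠ 0)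
    (h0 : g • (Pi.single 0 1 : Fin (m + 2) → F) = s • Pi.single 0 1)
    (h1 : g • (Pi.single 1 1 : Fin (m + 2) → F) = s • Pi.single 1 1) : InN g := by
  refine ⟨s, 0, hs, h0, ?_⟩
  rw [cons_e0_eq_single, zero_smul, add_zero]
  exact h1

theorem inN_transvection {m : ℕ} {k l : Fin (m + 2)} (hkl : k ≠ l) (u : F) (hl0 : l ≠ 0)
    (hl1 : l ≠ 1) : InN (transvection hkl u) := by
  refine inN_of_smul _ 1 one_ne_zero ?_ ?_
  · funext x
    rw [transvection_smul_apply]
    simp [hl0]
  · funext x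
    rw [transvection_smul_apply]
    simp [hl1]

theorem inN_torus {m : ℕ} (d : SpecialLinearGroup (Fin (m + 2)) F) (D : Fin (m + 2) → F)
    (hd : ∀ (w : Fin (m + 2) → F) k, (d • w) k = D k * w k) (s : F) (hs : s ≠ 0) (h0 : D 0 = s)
    (h1 : D 1 = s) : InN d := by
  refine inN_of_smul _ s hs ?_ ?_
  · funext x
    rw [hd]
    by_cases hx : x = 0
    · subst hx; simp [h0]
    · simp [hx]
  · funext x
    rw [hd]
    by_cases hx : x = 1
    · subst hx; simp [h1]
    · simp [hx]

theorem torus_comm {ι : Type*} [Fintype ι] [DecidableEq ι] (d : SpecialLinearGroup ι F)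
    (D : ι → F) (hd : ∀ (w : ι → F) k, (d • w) k = D k * w k) {a b : ι} (hab : a ≠ b) (t u : F)
    (h : D a * u = (t + u) * D b) :
    d * transvection hab u * d⁻¹ * (transvection hab u)⁻¹ = transvection hab t := by
  have key : d * transvection hab u = transvection hab t * transvection hab u * d := by
    apply sl_ext_smul
    intro w
    funext k
    simp only [mul_smul, hd, transvection_smul_apply]
    by_cases hk : k = a
    · subst hk
      simp only [if_true, if_neg hab.symm]
      linear_combination (w b) * h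
    · simp [hk]
  rw [key]
  group

theorem exists_notMem_fin {N : ℕ} (s : Finset (Fin N)) (hs : s.card < N) : ∃ k, k ∉ s := by
  by_contra hcon
  push Not at hcon
  have : s = Finset.univ := Finset.eq_univ_iff_forall.mpr hcon
  rw [this, Finset.card_univ, Fintype.card_fin] at hs
  omega

theorem exists_pow_ne_one [Fintype F] (p : ℕ) (hp : p.Prime) (h1 : Fintype.card F ≠ 2)
    (h2 : Fintype.card F ≠ p + 1) : ∃ s : F, s ≠ 0 ∧ s ^ p ≠ 1 := by
  classical
  by_contra hcon
  push Not at hcon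
  obtain ⟨g, hg⟩ := IsCyclic.exists_ofOrder_eq_natCard (α := Fˣ)
  have h3 : g ^ p = 1 := by
    apply Units.ext
    rw [Units.val_pow_eq_pow_val, Units.val_one]
    exact hcon _ g.ne_zero
  have h4 := orderOf_dvd_of_pow_eq_one h3
  rw [hg, Nat.card_eq_fintype_card, Fintype.card_units] at h4
  have hq : 2 ≤ Fintype.card F := Fintype.one_lt_card
  rcases (Nat.dvd_prime hp).mp h4 with h | h <;> omega

theorem comm_aux [Fintype F] (m : ℕ) (hm : 1 ≤ m)
    (hex : (m + 2, Fintype.card F) ≠ (3, 2) ∧ (m + 2, Fintype.card F) ≠ (3, 4) ∧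
      (m + 2, Fintype.card F) ≠ (4, 2) ∧ (m + 2, Fintype.card F) ≠ (4, 3))
    (a b : Fin (m + 2)) (hab : a ≠ b) (ha0 : a ≠ 0) (hb0 : b ≠ 0) (hb1 : b ≠ 1) (t : F) :
    ∃ g₁ g₂ : SpecialLinearGroup (Fin (m + 2)) F, InN g₁ ∧ InN g₂ ∧
      g₁ * g₂ * g₁⁻¹ * g₂⁻¹ = transvection hab t := by
  classical
  have third : ∀ k : Fin (m + 2), k ≠ 0 → k ≠ 1 → k ≠ a → k ≠ b →
      ∃ g₁ g₂ : SpecialLinearGroup (Fin (m + 2)) F, InN g₁ ∧ InN g₂ ∧
        g₁ * g₂ * g₁⁻¹ * g₂⁻¹ = transvection hab t := by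
    intro k hk0 hk1 hka hkb
    refine ⟨transvection (Ne.symm hka) t, transvection hkb 1, inN_transvection _ _ hk0 hk1,
      inN_transvection _ _ hb0 hb1, ?_⟩
    rw [transvection_eq_commutator hab (Ne.symm hka) hkb t, commutatorElement_def]
  have h01 : (0 : Fin (m + 2)) ≠ 1 := by
    intro h
    have := congrArg Fin.val h
    simp at this
  by_cases ha1 : a = 1
  · subst ha1
    rcases Nat.lt_or_ge m 2 with hm2 | hm2
    · obtain rfl : m = 1 := by omega
      have hq2 : Fintype.card F ≠ 2 := fun h => hex.1 (by rw [h])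
      have hq4 : Fintype.card F ≠ 3 + 1 := fun h => hex.2.1 (by rw [h])
      obtain ⟨s, hs0, hs⟩ := exists_pow_ne_one (F := F) 3 Nat.prime_three hq2 hq4
      have hs' : s ^ 3 - 1 ≠ 0 := sub_ne_zero.mpr hs
      let d : SpecialLinearGroup (Fin (1 + 2)) F :=
        diag2n (Ne.symm hb0) s hs0 * diag2n hab s hs0
      let D : Fin (1 + 2) → F := fun k =>
        (if k = 0 then s else if k = b then s⁻¹ else 1) *
          (if k = 1 then s else if k = b then s⁻¹ else 1)
      have hd : ∀ (w : Fin (1 + 2) → F) k, (d • w) k = D k * w k := by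
        intro w k
        simp only [d, D, mul_smul, diag2n_smul_apply]
        ring
      refine ⟨d, transvection hab (t / (s ^ 3 - 1)), inN_torus d D hd s hs0 ?_ ?_,
        inN_transvection _ _ hb0 hb1, torus_comm d D hd hab t _ ?_⟩
      · simp [D, h01, Ne.symm hb0]
      · simp [D, h01.symm, Ne.symm hb1]
      · simp only [D, if_neg h01.symm, if_neg hab, if_true, if_neg hb0, if_neg hb1]
        field_simp
        ring
    · obtain ⟨k, hk⟩ := exists_notMem_fin ({0, 1, b} : Finset (Fin (m + 2)))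
        (lt_of_le_of_lt Finset.card_le_three (by omega))
      simp only [Finset.mem_insert, Finset.mem_singleton, not_or] at hk
      exact third k hk.1 hk.2.1 hk.2.1 hk.2.2
  · rcases Nat.lt_or_ge m 3 with hm3 | hm3
    · have hm2 : m = 2 := by
        have h1 : a.val ≠ 0 := fun h => ha0 (Fin.ext h)
        have h2 : b.val ≠ 0 := fun h => hb0 (Fin.ext h)
        have h3 : a.val ≠ 1 := fun h => ha1 (Fin.ext (by simpa using h))
        have h4 : b.val ≠ 1 := fun h => hb1 (Fin.ext (by simpa using h))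
        have h5 : a.val ≠ b.val := fun h => hab (Fin.ext h)
        have := a.2
        have := b.2
        omega
      subst hm2
      have hq2 : Fintype.card F ≠ 2 := fun h => hex.2.2.1 (by rw [h])
      have hq3 : Fintype.card F ≠ 2 + 1 := fun h => hex.2.2.2 (by rw [h])
      obtain ⟨s, hs0, hs⟩ := exists_pow_ne_one (F := F) 2 Nat.prime_two hq2 hq3
      have hs' : s ^ 2 - 1 ≠ 0 := sub_ne_zero.mpr hs
      let d : SpecialLinearGroup (Fin (2 + 2)) F := diag2n hab s hs0
      let D : Fin (2 + 2) → F := fun k => (if k = a then s else if k = b then s⁻¹ else 1)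
      have hd : ∀ (w : Fin (2 + 2) → F) k, (d • w) k = D k * w k := by
        intro w k
        simp only [d, D, diag2n_smul_apply]
      refine ⟨d, transvection hab (t / (s ^ 2 - 1)), inN_torus d D hd 1 one_ne_zero ?_ ?_,
        inN_transvection _ _ hb0 hb1, torus_comm d D hd hab t _ ?_⟩
      · simp [D, Ne.symm ha0, Ne.symm hb0]
      · simp [D, Ne.symm ha1, Ne.symm hb1]
      · simp only [D, if_true, if_neg hab.symm]
        field_simp
        ring
    · obtain ⟨k, hk⟩ := exists_notMem_fin ({0, 1, a, b} : Finset (Fin (m + 2)))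
        (lt_of_le_of_lt Finset.card_le_four (by omega))
      simp only [Finset.mem_insert, Finset.mem_singleton, not_or] at hk
      exact third k hk.1 hk.2.1 hk.2.2.1 hk.2.2.2

end aux

/-- RUNG COMM. With `n = m + 2`: each generator `diag(1, 1 + t E_{ij})`, `j ≠ 0`, of the stabiliser is a
commutator of two elements of `InN`. (`n ≥ 5`: third index; `n = 4`: third index or the torus
`diag(1,1,s,s⁻¹)`, `s² ≠ 1`; `n = 3`: the torus `diag(s,s,s⁻²)`, `s³ ≠ 1`.) -/
theorem exists_comm [Fintype F] (m : ℕ) (hm : 1 ≤ m)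
    (hex : (m + 2, Fintype.card F) ≠ (3, 2) ∧ (m + 2, Fintype.card F) ≠ (3, 4) ∧
      (m + 2, Fintype.card F) ≠ (4, 2) ∧ (m + 2, Fintype.card F) ≠ (4, 3))
    (i j : Fin (m + 1)) (h : i ≠ j) (hj : j ≠ 0) (t : F) :
    ∃ g₁ g₂ : SpecialLinearGroup (Fin (m + 2)) F, InN g₁ ∧ InN g₂ ∧
      g₁ * g₂ * g₁⁻¹ * g₂⁻¹ = lev (SpecialLinearGroup.transvection h t) := by
  rw [lev_transvection]
  refine comm_aux m hm hex _ _ _ (Fin.succ_ne_zero i) (Fin.succ_ne_zero j) ?_ t
  rw [← Fin.succ_zero_eq_one]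
  exact fun h' => hj (Fin.succ_injective _ h')

end Cfsg.Agent.Lib.Helper44.SLW
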