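import Mathlib

set_option autoImplicit false

namespace Cfsg.Agent.Lib.Helper44.SLW

open Matrix in
/-- RUNG NU. Operators commuting with a rank one idempotent act on its range by scalars, hence
commutators act trivially. -/
theorem comm_mul_rank_one {G : Type*} [Group G] {d : ℕ} (R : G →* Matrix (Fin d) (Fin d) ℂ)
    (e : Matrix (Fin d) (Fin d) ℂ) (he : e * e = e) (hr : e.rank = 1) (g₁ g₂ : G)
    (h₁ : R g₁ * e = e * R g₁) (h₂ : R g₂ * e = e * R g₂) :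
    R (g₁ * g₂ * g₁⁻¹ * g₂⁻¹) * e = e := by
  rw [Matrix.rank] at hr
  obtain ⟨⟨v, hvW⟩, hv0, hspan⟩ := finrank_eq_one_iff'.mp hr
  have hv0' : v ≠ 0 := fun h => hv0 (Subtype.ext h)
  have hev : e *ᵥ v = v := by
    obtain ⟨w, rfl⟩ := hvW
    change e *ᵥ (e *ᵥ w) = e *ᵥ w
    rw [Matrix.mulVec_mulVec, he]
  have hsp : ∀ w, ∃ c : ℂ, e *ᵥ w = c • v := by
    intro w
    obtain ⟨c, hc⟩ := hspan ⟨e *ᵥ w, ⟨w, rfl⟩⟩
    exact ⟨c, (congrArg Subtype.val hc).symm⟩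
  have key : ∀ g, R g * e = e * R g → ∃ c : ℂ, R g *ᵥ v = c • v := by
    intro g hg
    obtain ⟨c, hc⟩ := hsp (R g *ᵥ v)
    refine ⟨c, ?_⟩
    rw [← hc, Matrix.mulVec_mulVec, ← hg, ← Matrix.mulVec_mulVec, hev]
  have hinv : ∀ g, R g * e = e * R g → R g⁻¹ * e = e * R g⁻¹ := by
    intro g hg
    have h1 : R g⁻¹ * R g = 1 := by rw [← map_mul, inv_mul_cancel, map_one]
    have h2 : R g * R g⁻¹ = 1 := by rw [← map_mul, mul_inv_cancel, map_one]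
    calc R g⁻¹ * e = R g⁻¹ * e * (R g * R g⁻¹) := by rw [h2, mul_one]
      _ = R g⁻¹ * (e * R g) * R g⁻¹ := by simp only [mul_assoc]
      _ = R g⁻¹ * (R g * e) * R g⁻¹ := by rw [hg]
      _ = (R g⁻¹ * R g) * e * R g⁻¹ := by simp only [mul_assoc]
      _ = e * R g⁻¹ := by rw [h1, one_mul]
  obtain ⟨c₁, hc₁⟩ := key g₁ h₁
  obtain ⟨c₂, hc₂⟩ := key g₂ h₂
  obtain ⟨d₁, hd₁⟩ := key g₁⁻¹ (hinv g₁ h₁)
  obtain ⟨d₂, hd₂⟩ := key g₂⁻¹ (hinv g₂ h₂)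
  have hcd : ∀ (g : G) (c c' : ℂ), R g *ᵥ v = c • v → R g⁻¹ *ᵥ v = c' • v → c' * c = 1 := by
    intro g c c' hc hc'
    have h1 : (R g * R g⁻¹) *ᵥ v = v := by
      rw [← map_mul, mul_inv_cancel, map_one, Matrix.one_mulVec]
    rw [← Matrix.mulVec_mulVec, hc', Matrix.mulVec_smul, hc, smul_smul] at h1
    have h2 : (c' * c - 1) • v = 0 := by rw [sub_smul, h1, one_smul, sub_self]
    rcases smul_eq_zero.mp h2 with h | h
    · exact sub_eq_zero.mp h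
    · exact absurd h hv0'
  have hv : R (g₁ * g₂ * g₁⁻¹ * g₂⁻¹) *ᵥ v = v := by
    rw [map_mul, map_mul, map_mul, ← Matrix.mulVec_mulVec, ← Matrix.mulVec_mulVec,
      ← Matrix.mulVec_mulVec]
    simp only [hd₂, Matrix.mulVec_smul, hd₁, hc₂, hc₁, smul_smul]
    have : d₂ * d₁ * c₂ * c₁ = (d₂ * c₂) * (d₁ * c₁) := by ring
    rw [this, hcd g₁ c₁ d₁ hc₁ hd₁, hcd g₂ c₂ d₂ hc₂ hd₂, one_mul, one_smul]
  rw [Matrix.ext_iff_mulVec]
  intro w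
  obtain ⟨c, hc⟩ := hsp w
  rw [← Matrix.mulVec_mulVec, hc, Matrix.mulVec_smul, hv]

end Cfsg.Agent.Lib.Helper44.SLW
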