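import Mathlib
import Cfsg.Agent.Lib.Helper44.SLW.Core2
import Cfsg.Agent.Lib.Helper44.SLW.Comm
import Cfsg.Agent.Lib.Helper44.SLW.NU
import Cfsg.Agent.Lib.Helper47.SLn

/-!
# Ladder SLWEIL: the stabiliser of a weight acts trivially; trace identity; fixed vectors
-/

set_option autoImplicit false
set_option linter.unusedSectionVars false

namespace Cfsg.Agent.Lib.Helper44.SLW

open Matrix
open Cfsg.Agent.Lib.Helper5.MinIdx
open Cfsg.Agent.Lib.Helper18.AutPSL

section avg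

variable {S : Type*} [Group S] [Fintype S] {d : ℕ} (T : S →* Matrix (Fin d) (Fin d) ℂ)

/-- the averaging projection -/
noncomputable def avg : Matrix (Fin d) (Fin d) ℂ := (Fintype.card S : ℂ)⁻¹ • ∑ s, T s

theorem card_ne_zero' : (Fintype.card S : ℂ) ≠ 0 := by
  have : 0 < Fintype.card S := Fintype.card_pos
  exact_mod_cast this.ne'

theorem mul_avg (s : S) : T s * avg T = avg T := by
  unfold avg
  rw [Matrix.mul_smul, Finset.mul_sum]
  congr 1
  rw [← Equiv.sum_comp (Equiv.mulLeft s) (fun x => T x)]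
  exact Finset.sum_congr rfl fun x _ => by rw [Equiv.coe_mulLeft, map_mul]

theorem avg_mul_of_fixed (X : Matrix (Fin d) (Fin d) ℂ) (h : ∀ s, T s * X = X) : avg T * X = X := by
  unfold avg
  rw [Matrix.smul_mul, Finset.sum_mul, Finset.sum_congr rfl (fun s _ => h s), Finset.sum_const,
    Finset.card_univ, ← Nat.cast_smul_eq_nsmul ℂ, smul_smul, inv_mul_cancel₀ card_ne_zero', one_smul]

theorem mul_avg_of_fixed (X : Matrix (Fin d) (Fin d) ℂ) (h : ∀ s, X * T s = X) : X * avg T = X := by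
  unfold avg
  rw [Matrix.mul_smul, Finset.mul_sum, Finset.sum_congr rfl (fun s _ => h s), Finset.sum_const,
    Finset.card_univ, ← Nat.cast_smul_eq_nsmul ℂ, smul_smul, inv_mul_cancel₀ card_ne_zero', one_smul]

theorem avg_idem : avg T * avg T = avg T := avg_mul_of_fixed T _ (mul_avg T)

theorem avg_comm (Y : Matrix (Fin d) (Fin d) ℂ) (h : ∀ s, T s * Y = Y * T s) :
    avg T * Y = Y * avg T := by
  unfold avg
  rw [Matrix.smul_mul, Matrix.mul_smul, Finset.sum_mul, Finset.mul_sum]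
  congr 1
  exact Finset.sum_congr rfl fun s _ => h s

theorem trace_avg_mul (Y : Matrix (Fin d) (Fin d) ℂ) :
    (avg T * Y).trace = (Fintype.card S : ℂ)⁻¹ * ∑ s, (T s * Y).trace := by
  unfold avg
  rw [Matrix.smul_mul, trace_smul, Finset.sum_mul, trace_sum, smul_eq_mul]

theorem avg_eq_zero (h : ∑ s, (T s).trace = 0) : avg T = 0 := by
  apply eq_zero_of_rank_eq_zero
  have h1 := trace_eq_rank_of_idem _ (avg_idem T)
  have h2 : (avg T).trace = 0 := by
    unfold avg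
    rw [trace_smul, trace_sum, h, smul_zero]
  rw [h2] at h1
  exact_mod_cast h1.symm

end avg

variable {F : Type*} [Field F] [Fintype F] [DecidableEq F] {m d : ℕ} {ψ : AddChar F ℂ}

theorem InN.comm {g : SpecialLinearGroup (Fin (m + 2)) F} (h : InN g) (ψ : AddChar F ℂ)
    (R : SpecialLinearGroup (Fin (m + 2)) F →* Matrix (Fin d) (Fin d) ℂ) :
    R g * EE ψ R e0 = EE ψ R e0 * R g := by
  obtain ⟨s, z, hs, h1, h2⟩ := h
  exact conj_EE ψ R g s hs h1 e0 e0 z h2

/-- the stabiliser of the weight `e0` acts trivially on its weight line -/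
theorem stab_fix (hm : 1 ≤ m)
    (hex : (m + 2, Fintype.card F) ≠ (3, 2) ∧ (m + 2, Fintype.card F) ≠ (3, 4) ∧
      (m + 2, Fintype.card F) ≠ (4, 2) ∧ (m + 2, Fintype.card F) ≠ (4, 3))
    (hψ : ψ.IsPrimitive) (R : SpecialLinearGroup (Fin (m + 2)) F →* Matrix (Fin d) (Fin d) ℂ)
    (hrank : (EE ψ R e0).rank = 1) (A : SpecialLinearGroup (Fin (m + 1)) F) (hA : A.1 *ᵥ e0 = e0) :
    R (lev A) * EE ψ R e0 = EE ψ R e0 := by
  refine stab_induction m (fun A => R (lev A) * EE ψ R e0 = EE ψ R e0) ?_ ?_ ?_ A hA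
  · rw [map_one, map_one, one_mul]
  · intro A B hA hB
    rw [map_mul, map_mul, mul_assoc, hB, hA]
  · intro i j h t hj
    obtain ⟨g₁, g₂, h₁, h₂, h₃⟩ := exists_comm m hm hex i j h hj t
    rw [← h₃]
    exact comm_mul_rank_one R _ (EE_idem R hψ _) hrank g₁ g₂ (h₁.comm ψ R) (h₂.comm ψ R)

theorem EE_lev_eq (R : SpecialLinearGroup (Fin (m + 1)) F →* Matrix (Fin d) (Fin d) ℂ)
    (B : SpecialLinearGroup (Fin m) F) (c : Fin m → F) :
    EE ψ R (B.1 *ᵥ c) = R (lev B) * EE ψ R c * R (lev B⁻¹) := by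
  rw [lev_mul_EE, mul_assoc, ← map_mul, ← map_mul, mul_inv_cancel, map_one, map_one, mul_one]

theorem stab_fix' (hm : 1 ≤ m)
    (R : SpecialLinearGroup (Fin (m + 2)) F →* Matrix (Fin d) (Fin d) ℂ)
    (hfix : ∀ A : SpecialLinearGroup (Fin (m + 1)) F, A.1 *ᵥ e0 = e0 →
      R (lev A) * EE ψ R e0 = EE ψ R e0)
    (c : Fin (m + 1) → F) (hc : c ≠ 0) (A : SpecialLinearGroup (Fin (m + 1)) F)
    (hA : A.1 *ᵥ c = c) : R (lev A) * EE ψ R c = EE ψ R c := by
  obtain ⟨B, rfl⟩ := exists_mulVec_eq m hm c hc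
  have h1 : (B⁻¹ * A * B).1 *ᵥ e0 = e0 := by
    show ((B⁻¹).1 * A.1 * B.1) *ᵥ e0 = e0
    rw [← mulVec_mulVec, ← mulVec_mulVec, hA, mulVec_mulVec, inv_mul_val, one_mulVec]
  have h2 := hfix _ h1
  rw [EE_lev_eq, ← mul_assoc, ← mul_assoc, ← map_mul, ← map_mul]
  have h3 : A * B = B * (B⁻¹ * A * B) := by group
  rw [h3, map_mul, map_mul, mul_assoc (R (lev B)), h2]

/-- the trace identity -/
theorem trace_lev (hψ : ψ.IsPrimitive)
    (R : SpecialLinearGroup (Fin (m + 1)) F →* Matrix (Fin d) (Fin d) ℂ)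
    (hrank : ∀ c : Fin m → F, c ≠ 0 → (EE ψ R c).rank = 1)
    (hfix : ∀ c : Fin m → F, c ≠ 0 → ∀ A : SpecialLinearGroup (Fin m) F, A.1 *ᵥ c = c →
      R (lev A) * EE ψ R c = EE ψ R c) (A : SpecialLinearGroup (Fin m) F) :
    (R (lev A)).trace = (R (lev A) * EE ψ R 0).trace +
      ((Finset.univ.filter (fun c : Fin m → F => c ≠ 0 ∧ A.1 *ᵥ c = c)).card : ℂ) := by
  have h : R (lev A) = ∑ c, R (lev A) * EE ψ R c := by
    rw [← Finset.mul_sum, sum_EE R hψ, mul_one]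
  conv_lhs => rw [h]
  rw [trace_sum, ← Finset.add_sum_erase _ _ (Finset.mem_univ (0 : Fin m → F))]
  congr 1
  rw [Finset.card_eq_sum_ones, Finset.sum_filter]
  push_cast
  rw [← Finset.add_sum_erase _ _ (Finset.mem_univ (0 : Fin m → F)), if_neg (by simp), zero_add]
  refine Finset.sum_congr rfl fun c hc => ?_
  have hc0 := Finset.ne_of_mem_erase hc
  by_cases hA : A.1 *ᵥ c = c
  · rw [if_pos ⟨hc0, hA⟩, hfix c hc0 A hA, trace_EE R hψ, hrank c hc0]
    simp
  · rw [if_neg (fun h => hA h.2), ← EE_idem R hψ c, ← mul_assoc, trace_mul_comm, ← mul_assoc,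
      mul_assoc, lev_mul_EE, ← mul_assoc, EE_orth R hψ hA, zero_mul, trace_zero]

end Cfsg.Agent.Lib.Helper44.SLW
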