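import Mathlib
import Cfsg.Agent.Lib.Helper44.SLW.Core3
import Cfsg.Agent.Lib.Helper18.AutPSL.Rigid

/-!
# Ladder SLWEIL: fixed vectors and the key non vanishing
-/

set_option autoImplicit false
set_option linter.unusedSectionVars false

namespace Cfsg.Agent.Lib.Helper44.SLW

open Matrix
open Cfsg.Agent.Lib.Helper5.MinIdx
open Cfsg.Agent.Lib.Helper18.AutPSL

theorem transvection_eq_tr {ι : Type*} [Fintype ι] [DecidableEq ι] {F : Type*} [Field F] {i j : ι}
    (hij : i ≠ j) (c : F) :
    SpecialLinearGroup.transvection hij c = tr (Pi.single i (1 : F)) (c • Pi.single j (1 : F)) := by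
  have h0 : (c • Pi.single j (1 : F) : ι → F) ⬝ᵥ (Pi.single i (1 : F) : ι → F) = 0 := by
    rw [smul_dotProduct, _root_.single_one_dotProduct]
    simp [hij.symm]
  apply Subtype.ext
  rw [tr_val h0]
  ext k l
  simp only [SpecialLinearGroup.transvection, Matrix.transvection, Matrix.add_apply,
    vecMulVec_apply, Pi.smul_apply, smul_eq_mul, Matrix.single_apply, Pi.single_apply]
  by_cases hk : k = i
  · by_cases hl : l = j
    · simp [hk, hl]
    · simp [hk, hl, Ne.symm hl]
  · simp [hk, Ne.symm hk]

variable {F : Type*} [Field F] {m : ℕ}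

theorem cons_zero_single (j : Fin m) (c : F) :
    (Fin.cons 0 (Pi.single j c) : Fin (m + 1) → F) = c • Pi.single j.succ (1 : F) := by
  funext i
  refine Fin.cases ?_ (fun k => ?_) i
  · simp [(Fin.succ_ne_zero j).symm]
  · by_cases h : k = j
    · subst h; simp
    · simp [h]

theorem transvection_zero_succ (j : Fin m) (c : F) :
    SpecialLinearGroup.transvection (Fin.succ_ne_zero j).symm c = rad (Pi.single j c) := by
  rw [transvection_eq_tr]
  unfold rad e0
  rw [cons_zero_single]

theorem transvection_succ_zero (i : Fin m) (c : F) :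
    SpecialLinearGroup.transvection (Fin.succ_ne_zero i) c = invT (rad (Pi.single i (-c))) := by
  rw [transvection_eq_tr]
  unfold rad
  rw [invT_tr, cons_zero_single, tr_smul]
  congr 1
  unfold e0
  rw [smul_neg, neg_smul, neg_neg]

theorem levMat_transpose (A : Matrix (Fin m) (Fin m) F) : (levMat A)ᵀ = levMat Aᵀ := by
  ext i j
  refine Fin.cases ?_ (fun i' => ?_) i <;> refine Fin.cases ?_ (fun j' => ?_) j <;> simp [levMat]

theorem invT_lev (A : SpecialLinearGroup (Fin m) F) : invT (lev A) = lev (invT A) := by
  apply invT_eq_of_mul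
  rw [lev_val, lev_val, levMat_transpose, ← levMat_mul, invT_transpose_mul, levMat_one]

variable [Fintype F] [DecidableEq F] {d : ℕ} {ψ : AddChar F ℂ}

theorem rad_mul_of_EE_zero (R : SpecialLinearGroup (Fin (m + 1)) F →* Matrix (Fin d) (Fin d) ℂ)
    (X : Matrix (Fin d) (Fin d) ℂ) (h : EE ψ R 0 * X = X) (y : Fin m → F) : R (rad y) * X = X := by
  rw [← h, ← mul_assoc, rad_mul_EE, zero_dotProduct, AddChar.map_zero_eq_one, one_smul]

/-- RUNG FIXV: no vectors fixed by `rad` and its transpose -/
theorem eq_zero_of_fixed (hm : 1 ≤ m)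
    (R : SpecialLinearGroup (Fin (m + 1)) F →* Matrix (Fin d) (Fin d) ℂ)
    (h0 : ∑ g, (R g).trace = 0) (X : Matrix (Fin d) (Fin d) ℂ) (h1 : EE ψ R 0 * X = X)
    (h2 : EE ψ (tw R) 0 * X = X) : X = 0 := by
  have : Nontrivial (Fin (m + 1)) := Fin.nontrivial_iff_two_le.mpr (by omega)
  let K : Subgroup (SpecialLinearGroup (Fin (m + 1)) F) :=
    { carrier := {g | R g * X = X}
      one_mem' := by show R 1 * X = X; rw [map_one, one_mul]
      mul_mem' := by
        intro a b ha hb
        show R (a * b) * X = X
        rw [map_mul, mul_assoc, hb, ha]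
      inv_mem' := by
        intro a ha
        show R a⁻¹ * X = X
        have ha' : R a * X = X := ha
        conv_lhs => rw [← ha', ← mul_assoc, ← map_mul, inv_mul_cancel, map_one, one_mul] }
  have hK1 : ∀ (j : Fin m) (c : F),
      SpecialLinearGroup.transvection (Fin.succ_ne_zero j).symm c ∈ K := by
    intro j c
    rw [transvection_zero_succ]
    exact rad_mul_of_EE_zero R X h1 _
  have hK2 : ∀ (i : Fin m) (c : F), SpecialLinearGroup.transvection (Fin.succ_ne_zero i) c ∈ K := by
    intro i c
    rw [transvection_succ_zero]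
    exact rad_mul_of_EE_zero (tw R) X h2 _
  have hK : K = ⊤ := by
    apply Cfsg.Agent.Lib.Helper45.eq_top_of_transvections
    intro i j hij c
    induction i using Fin.cases with
    | zero =>
      induction j using Fin.cases with
      | zero => exact absurd rfl hij
      | succ j => exact hK1 j c
    | succ i =>
      induction j using Fin.cases with
      | zero => exact hK2 i c
      | succ j =>
        rw [Cfsg.Agent.Lib.Helper47.transvection_eq_commutator hij (Fin.succ_ne_zero i)
          (Fin.succ_ne_zero j).symm c]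
        rw [commutatorElement_def]
        exact K.mul_mem (K.mul_mem (K.mul_mem (hK2 i c) (hK1 j 1)) (K.inv_mem (hK2 i c)))
          (K.inv_mem (hK1 j 1))
  have h3 : ∀ g, R g * X = X := by
    intro g
    have : g ∈ K := by rw [hK]; trivial
    exact this
  rw [← avg_mul_of_fixed R X h3, avg_eq_zero R h0, zero_mul]

end Cfsg.Agent.Lib.Helper44.SLW
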