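import Mathlib
import Cfsg.Agent.Lib.Helper44.SLW.Core4

/-!
# Ladder SLWEIL: the key non vanishing, and the hypothesis `a = 1`
-/

set_option autoImplicit false
set_option linter.unusedSectionVars false

namespace Cfsg.Agent.Lib.Helper44.SLW

open Matrix
open Cfsg.Agent.Lib.Helper5.MinIdx
open Cfsg.Agent.Lib.Helper18.AutPSL

variable {F : Type*} [Field F] {m : ℕ}

theorem lev_tr (a φ : Fin m → F) (h : φ ⬝ᵥ a = 0) :
    lev (tr a φ) = tr (Fin.cons 0 a : Fin (m + 1) → F) (Fin.cons 0 φ) := by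
  have h' : (Fin.cons 0 φ : Fin (m + 1) → F) ⬝ᵥ (Fin.cons 0 a : Fin (m + 1) → F) = 0 := by
    rw [cons_dot_cons, h]; simp
  apply Subtype.ext
  rw [lev_val, tr_val h, tr_val h', Matrix.ext_iff_mulVec]
  intro v
  rw [← Fin.cons_self_tail v, levMat_mulVec, add_mulVec, add_mulVec, one_mulVec, one_mulVec,
    vecMulVec_mulVec, vecMulVec_mulVec, cons_dot_cons]
  funext i
  refine Fin.cases ?_ (fun j => ?_) i <;> simp [Fin.tail]

theorem cons_zero_ne_zero {a : Fin m → F} (h : a ≠ 0) : (Fin.cons 0 a : Fin (m + 1) → F) ≠ 0 := by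
  intro h0
  apply h
  funext i
  have := congrFun h0 i.succ
  simpa using this

theorem e0_ne_zero : (e0 : Fin (m + 1) → F) ≠ 0 := by
  intro h0
  have := congrFun h0 0
  simp [e0] at this

variable [Fintype F] [DecidableEq F] {d : ℕ} {ψ : AddChar F ℂ}

/-- RUNG KEY. -/
theorem key_ne_zero (hm : 1 ≤ m) (hψ : ψ.IsPrimitive)
    (R : SpecialLinearGroup (Fin (m + 2)) F →* Matrix (Fin d) (Fin d) ℂ)
    (h0 : ∑ g, (R g).trace = 0)
    (hfix : ∀ A : SpecialLinearGroup (Fin (m + 1)) F, A.1 *ᵥ e0 = e0 →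
      R (lev A) * EE ψ R e0 = EE ψ R e0)
    (Y : Matrix (Fin d) (Fin d) ℂ)
    (hYc : ∀ A : SpecialLinearGroup (Fin (m + 1)) F, R (lev A) * Y = Y * R (lev A))
    (hY2 : EE ψ (tw R) 0 * Y = Y) (hY0 : Y ≠ 0)
    {S : Type*} [Group S] [Fintype S] (ι : S →* SpecialLinearGroup (Fin (m + 1)) F)
    (hι : ∀ s, (ι s).1 *ᵥ e0 = e0) : avg ((R.comp lev).comp ι) * Y ≠ 0 := by
  intro hcon
  have h1 : EE ψ R e0 * avg ((R.comp lev).comp ι) = EE ψ R e0 := by
    apply mul_avg_of_fixed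
    intro s
    show EE ψ R e0 * R (lev (ι s)) = EE ψ R e0
    have h2 := lev_mul_EE ψ R (ι s) e0
    rw [hι s] at h2
    rw [← h2, hfix _ (hι s)]
  have h2 : EE ψ R e0 * Y = 0 := by
    rw [← h1, mul_assoc, hcon, mul_zero]
  have h3 : ∀ c : Fin (m + 1) → F, c ≠ 0 → EE ψ R c * Y = 0 := by
    intro c hc
    obtain ⟨B, rfl⟩ := exists_mulVec_eq m hm c hc
    rw [EE_lev_eq, mul_assoc, hYc, ← mul_assoc, mul_assoc (R (lev B)), h2, mul_zero, zero_mul]
  have h4 : EE ψ R 0 * Y = Y := by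
    conv_rhs => rw [← one_mul Y, ← sum_EE R hψ, Finset.sum_mul,
      ← Finset.add_sum_erase _ _ (Finset.mem_univ (0 : Fin (m + 1) → F)),
      Finset.sum_eq_zero (fun c hc => h3 c (Finset.ne_of_mem_erase hc)), add_zero]
  exact hY0 (eq_zero_of_fixed (by omega) R h0 Y h4 hY2)

/-- the hypothesis `a = 1` in terms of traces -/
def A1 (R : SpecialLinearGroup (Fin (m + 2)) F →* Matrix (Fin d) (Fin d) ℂ) : Prop :=
  ∀ u φ : Fin (m + 2) → F, u ≠ 0 → φ ≠ 0 → φ ⬝ᵥ u = 0 →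
    (R (tr u φ)).trace = (d : ℂ) - (Fintype.card F : ℂ) ^ (m + 1)

theorem A1.tw {R : SpecialLinearGroup (Fin (m + 2)) F →* Matrix (Fin d) (Fin d) ℂ} (h : A1 R) :
    A1 (tw R) := by
  intro u φ hu hφ hd
  rw [tw_apply, invT_tr]
  exact h φ (-u) hφ (neg_ne_zero.mpr hu) (by rw [neg_dotProduct, dotProduct_comm, hd, neg_zero])

theorem A1.rank (hm : 1 ≤ m) (hψ : ψ.IsPrimitive)
    {R : SpecialLinearGroup (Fin (m + 2)) F →* Matrix (Fin d) (Fin d) ℂ} (h : A1 R) :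
    (∀ c : Fin (m + 1) → F, c ≠ 0 → (EE ψ R c).rank = 1) ∧
      d = (EE ψ R 0).rank + (Fintype.card F ^ (m + 1) - 1) := by
  obtain ⟨a, ha, hd, htr⟩ := exists_mult hm hψ R
  have hq : 1 ≤ Fintype.card F ^ (m + 1) := Nat.one_le_pow _ _ Fintype.card_pos
  have h1 := htr e0 e0_ne_zero
  have h2 := h e0 (Fin.cons 0 e0) e0_ne_zero (cons_zero_ne_zero e0_ne_zero) (cons_zero_dot_e0 _)
  have h3 : (R (rad e0)).trace = (d : ℂ) - (Fintype.card F : ℂ) ^ (m + 1) := h2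
  have hd' : (d : ℂ) = ((EE ψ R 0).rank : ℂ) + a * ((Fintype.card F : ℂ) ^ (m + 1) - 1) := by
    have := congrArg (Nat.cast : ℕ → ℂ) hd
    push_cast [Nat.cast_sub hq] at this
    exact this
  have h4 : ((a : ℂ) - 1) * (Fintype.card F : ℂ) ^ (m + 1) = 0 := by
    rw [h1] at h3
    linear_combination -hd' - h3
  have h5 : (a : ℂ) = 1 := by
    rcases mul_eq_zero.mp h4 with h6 | h6
    · linear_combination h6
    · exfalso
      have : (Fintype.card F : ℂ) ≠ 0 := by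
        have : 0 < Fintype.card F := Fintype.card_pos
        exact_mod_cast this.ne'
      exact pow_ne_zero _ this h6
  have h6 : a = 1 := by exact_mod_cast h5
  subst h6
  exact ⟨ha, by rw [one_mul] at hd; exact hd⟩

theorem tw_lev (R : SpecialLinearGroup (Fin (m + 1)) F →* Matrix (Fin d) (Fin d) ℂ)
    (A : SpecialLinearGroup (Fin m) F) : tw R (lev (invT A)) = R (lev A) := by
  rw [tw_apply, invT_lev, invT_invT]

theorem lev_comm_E2 (R : SpecialLinearGroup (Fin (m + 1)) F →* Matrix (Fin d) (Fin d) ℂ)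
    (A : SpecialLinearGroup (Fin m) F) :
    R (lev A) * EE ψ (tw R) 0 = EE ψ (tw R) 0 * R (lev A) := by
  have h := lev_mul_EE ψ (tw R) (invT A) 0
  rwa [tw_lev, mulVec_zero] at h

end Cfsg.Agent.Lib.Helper44.SLW
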