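import Mathlib
import Cfsg.Prelude.Def_Characters
import Cfsg.Agent.Lib.Helper20.CharBasic

set_option autoImplicit false

namespace Cfsg.Agent.Lib.Helper44.SLW

/-- RUNG X. The trace of a matrix representation cut by a commuting idempotent is a character
(the character of the subrepresentation on the range of `E`). -/
theorem isCharacter_trace_mul_idem {H : Type*} [Group H] {κ : Type*} [Fintype κ] [DecidableEq κ]
    (T : H →* Matrix κ κ ℂ) (E : Matrix κ κ ℂ) (hE : E * E = E) (hc : ∀ h, T h * E = E * T h) :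
    Cfsg.IsCharacter H (fun h => (T h * E).trace) := by
  let e : (κ → ℂ) →ₗ[ℂ] (κ → ℂ) := Matrix.toLin' E
  let W : Submodule ℂ (κ → ℂ) := LinearMap.range e
  have hee : ∀ v, e (e v) = e v := by
    intro v
    change Matrix.toLin' E (Matrix.toLin' E v) = Matrix.toLin' E v
    rw [← LinearMap.comp_apply, ← Matrix.toLin'_mul, hE]
  have hmem : ∀ v, e v ∈ W := fun v => ⟨v, rfl⟩
  have hid : ∀ w ∈ W, e w = w := by
    rintro w ⟨v, rfl⟩
    exact hee v
  have hW : ∀ h : H, ∀ w ∈ W, Matrix.toLin' (T h) w ∈ W := by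
    rintro h w ⟨v, rfl⟩
    refine ⟨Matrix.toLin' (T h) v, ?_⟩
    change Matrix.toLin' E (Matrix.toLin' (T h) v) = Matrix.toLin' (T h) (Matrix.toLin' E v)
    rw [← LinearMap.comp_apply, ← LinearMap.comp_apply, ← Matrix.toLin'_mul, ← Matrix.toLin'_mul,
      hc]
  let ρ : Representation ℂ H W :=
    { toFun := fun h => (Matrix.toLin' (T h)).restrict (hW h)
      map_one' := by
        ext w
        simp
      map_mul' := by
        intro a b
        ext w
        simp [Matrix.toLin'_mul] }
  have hρ := Cfsg.Agent.Lib.Helper20.isCharacter_of_rep ρ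
  have heq : ρ.character = fun h => (T h * E).trace := by
    funext h
    change LinearMap.trace ℂ W ((Matrix.toLin' (T h)).restrict (hW h)) = _
    rw [← Matrix.trace_toLin'_eq, Matrix.toLin'_mul]
    have h1 : Matrix.toLin' (T h) ∘ₗ Matrix.toLin' E =
        (Matrix.toLin' (T h) ∘ₗ W.subtype) ∘ₗ (e.codRestrict W hmem) := by
      ext v
      rfl
    rw [h1, LinearMap.trace_comp_comm']
    congr 1
    refine LinearMap.ext fun w => Subtype.ext ?_
    change Matrix.toLin' (T h) w = e (Matrix.toLin' (T h) w)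
    exact (hid _ (hW h w w.2)).symm
  rw [← heq]
  exact hρ

end Cfsg.Agent.Lib.Helper44.SLW
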