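import Mathlib
import Cfsg.Agent.Lib.Helper44.SLW.CHT
import Cfsg.Agent.Lib.Helper44.SLW.X
import Cfsg.Agent.Lib.Helper44.CharTools
import Cfsg.Agent.Lib.Helper77.Weil.Eig
import Cfsg.Agent.Lib.Helper77.Weil.Trans
import Cfsg.Agent.Lib.Helper96.Suborbit

set_option autoImplicit false

namespace Cfsg.Agent.Lib.Helper44.SLW

open Matrix
open Cfsg.Agent.Lib.Helper5.MinIdx
open Cfsg.Agent.Lib.Helper77.Weil (NZ)
open scoped ComplexConjugate

section aux

variable {F : Type*} [Field F] [Fintype F] [DecidableEq F] {m : ℕ}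

/-- A sum over the non-zero vectors. -/
theorem d_sum_NZ (f : (Fin m → F) → ℂ) : ∑ x : NZ m F, f x.1 = ∑ v, f v - f 0 := by
  classical
  have h1 : ∑ v ∈ Finset.univ.filter (fun v : Fin m → F => v ≠ 0), f v = ∑ x : NZ m F, f x.1 :=
    @Finset.sum_subtype _ _ _ (fun v : Fin m → F => v ≠ 0) (inferInstance : Fintype (NZ m F))
      _ (fun x => by simp) f
  rw [← h1, Finset.filter_ne', Finset.sum_erase_eq_sub (Finset.mem_univ _)]

theorem d_const_inner {G : Type*} [Group G] [Fintype G] (φ : G → ℂ) (h : ∀ g, φ g = φ 1) :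
    Cfsg.classInner φ (fun _ => 1) = φ 1 := by
  unfold Cfsg.classInner
  simp only [map_one, mul_one]
  rw [Finset.sum_congr rfl fun g _ => h g, Finset.sum_const, Finset.card_univ, nsmul_eq_mul,
    Nat.card_eq_fintype_card, ← mul_assoc, inv_mul_cancel₀ (by exact_mod_cast Fintype.card_ne_zero),
    one_mul]

theorem d_arith (q m k f : ℕ) (hq : 2 ≤ q) (hf : f ≤ 1) (h : (k + f) * (q - 1) + 1 = q ^ m) :
    (q ^ m - q) / (q - 1) ≤ k := by
  apply Nat.div_le_of_le_mul
  rw [← h]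
  obtain ⟨r, rfl⟩ : ∃ r, q = r + 1 := ⟨q - 1, by omega⟩
  simp only [Nat.add_sub_cancel]
  have h2 : (k + f) * r ≤ (k + 1) * r := Nat.mul_le_mul_right _ (by omega)
  have h3 : (k + 1) * r = r * k + r := by ring
  omega

theorem d_card_units : (Fintype.card Fˣ : ℂ) = (Fintype.card F : ℂ) - 1 := by
  rw [Fintype.card_units, Nat.cast_sub Fintype.card_pos, Nat.cast_one]

theorem d_fix_one [DecidableEq (NZ m F)] :
    ∑ x : NZ m F, (if (1 : SpecialLinearGroup (Fin m) F) • x = x then (1 : ℂ) else 0)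
      = (Fintype.card F : ℂ) ^ m - 1 := by
  simp only [one_smul, if_true]
  refine (d_sum_NZ (F := F) (m := m) (fun _ => (1 : ℂ))).trans ?_
  simp

theorem d_fix_tr [DecidableEq (NZ m F)] {u φ : Fin m → F} (hu : u ≠ 0) (hφ : φ ≠ 0)
    (h0 : φ ⬝ᵥ u = 0) :
    ∑ x : NZ m F, (if tr u φ • x = x then (1 : ℂ) else 0)
      = (Fintype.card F : ℂ) ^ (m - 1) - 1 := by
  classical
  have h1 : ∀ x : NZ m F, (tr u φ • x = x) ↔ φ ⬝ᵥ x.1 = 0 := by
    intro x
    constructor
    · intro h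
      have h2 : (tr u φ).1 *ᵥ x.1 = x.1 := congrArg Subtype.val h
      rw [tr_mulVec h0] at h2
      have h3 : (φ ⬝ᵥ x.1) • u = 0 := by simpa using h2
      exact (smul_eq_zero.1 h3).resolve_right hu
    · intro h
      apply Cfsg.Agent.Lib.Helper77.Weil.NZ.ext
      show (tr u φ).1 *ᵥ x.1 = x.1
      rw [tr_mulVec h0, h, zero_smul, add_zero]
  have h2 : ∑ x : NZ m F, (if tr u φ • x = x then (1 : ℂ) else 0)
      = ∑ x : NZ m F, (fun v : Fin m → F => if φ ⬝ᵥ v = 0 then (1 : ℂ) else 0) x.1 := by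
    refine Finset.sum_congr rfl fun x _ => ?_
    simp only [h1 x]
  rw [h2]
  refine (d_sum_NZ (fun v : Fin m → F => if φ ⬝ᵥ v = 0 then (1 : ℂ) else 0)).trans ?_
  have h3 : ∑ v : Fin m → F, (if φ ⬝ᵥ v = 0 then (1 : ℂ) else 0) = (Nat.card (kr φ) : ℂ) := by
    rw [Finset.sum_boole, Nat.card_eq_fintype_card, Fintype.card_subtype]
    refine congrArg _ (congrArg _ ?_)
    ext x
    simp [mem_kr]
  rw [h3, card_kr hφ]
  simp

end aux

/-- RUNG D. A nontrivial irreducible character of `SL_m(q)`, `m ≥ 3`, with a nonzero fixed vector under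
the stabiliser of a nonzero vector (i.e. a constituent of the permutation character on the nonzero vectors)
has degree at least `(q^m - q)/(q - 1)`. -/
theorem weil_degree_bound {F : Type*} [Field F] [Fintype F] [DecidableEq F] (m : ℕ) (hm : 3 ≤ m)
    (σ : SpecialLinearGroup (Fin m) F → ℂ) (hσ : Cfsg.IsIrrCharacter _ σ) (h1 : σ ≠ fun _ => 1)
    (v₀ : Fin m → F) (hv₀ : v₀ ≠ 0)
    (hS : ∑ g : SpecialLinearGroup (Fin m) F, (if g.1 *ᵥ v₀ = v₀ then σ g else 0) ≠ 0) :
    ∃ k : ℕ, σ 1 = k ∧ (Fintype.card F ^ m - Fintype.card F) / (Fintype.card F - 1) ≤ k := by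
  classical
  have hq2 : 2 ≤ Fintype.card F := Fintype.one_lt_card
  have hσc := Helper20.isCharacter_of_isIrrCharacter hσ
  have htr : MulAction.IsPretransitive (SpecialLinearGroup (Fin m) F) (NZ m F) :=
    ⟨fun x y => Helper77.Weil.trans1 hm x y⟩
  let a : NZ m F := ⟨v₀, hv₀⟩
  have : Nonempty (NZ m F) := ⟨a⟩
  -- the permutation character
  have hfix : (fun g : SpecialLinearGroup (Fin m) F => (Nat.card (MulAction.fixedBy (NZ m F) g) : ℂ))
      = fun g => ∑ x : NZ m F, if g • x = x then (1 : ℂ) else 0 := by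
    funext g
    rw [Helper96.card_fixedBy_eq_sum]
  have hπσ : Cfsg.classInner
      (fun g : SpecialLinearGroup (Fin m) F => ∑ x : NZ m F, if g • x = x then (1 : ℂ) else 0) σ ≠ 0 := by
    rw [← hfix, Helper96.classInner_perm (Helper20.isClassFunction_of_isCharacter hσc) a]
    apply mul_ne_zero
    · apply inv_ne_zero
      exact_mod_cast Nat.card_pos.ne'
    · rw [Ne, map_eq_zero]
      rw [Helper96.tsum_def]
      have hiff : ∀ g : SpecialLinearGroup (Fin m) F, (g • a = a) ↔ g.1 *ᵥ v₀ = v₀ := fun g =>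
        ⟨fun h => congrArg Subtype.val h, fun h => Helper77.Weil.NZ.ext h⟩
      simp only [hiff]
      convert hS
  obtain ⟨P1, P2, hP1, hP2, hsum, hP1σ, hval⟩ :=
    Helper77.Weil.exists_eigen_char (C := Fˣ) (Ω := NZ m F) hπσ
  -- values of `P1`
  have hqc : ((Fintype.card F : ℂ) - 1) ≠ 0 := by
    intro h
    rw [sub_eq_zero] at h
    have h' : Fintype.card F = 1 := by exact_mod_cast h
    omega
  have hv1 : P1 1 = ((Fintype.card F : ℂ) - 1)⁻¹ * ((Fintype.card F : ℂ) ^ m - 1) := by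
    rw [hval 1 (fun s hs x h => hs (Helper77.Weil.sc_free s x (by simpa using h))), d_fix_one,
      d_card_units]
  let u : Fin m → F := Pi.single ⟨0, by omega⟩ 1
  let φ : Fin m → F := Pi.single ⟨1, by omega⟩ 1
  have hu : u ≠ 0 := by
    intro h
    have := congrFun h ⟨0, by omega⟩
    simp [u] at this
  have hφ : φ ≠ 0 := by
    intro h
    have := congrFun h ⟨1, by omega⟩
    simp [φ] at this
  have h0 : φ ⬝ᵥ u = 0 := by
    simp [u, φ, Fin.ext_iff]
  have hvt : P1 (tr u φ) = ((Fintype.card F : ℂ) - 1)⁻¹ * ((Fintype.card F : ℂ) ^ (m - 1) - 1) := by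
    rw [hval (tr u φ) ?_, d_fix_tr hu hφ h0, d_card_units]
    intro s hs x h
    have h2 : (tr u φ).1 *ᵥ ((s : F) • x.1) = x.1 := congrArg Subtype.val h
    rw [tr_mulVec h0, dotProduct_smul, smul_eq_mul] at h2
    have h3 : φ ⬝ᵥ ((s : F) • x.1 + ((s : F) * (φ ⬝ᵥ x.1)) • u) = φ ⬝ᵥ x.1 := by rw [h2]
    rw [dotProduct_add, dotProduct_smul, dotProduct_smul, h0, smul_zero, add_zero, smul_eq_mul] at h3
    have hs1 : (s : F) - 1 ≠ 0 := by
      intro h4
      apply hs
      ext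
      simpa using sub_eq_zero.1 h4
    have h5 : φ ⬝ᵥ x.1 = 0 := by
      have : ((s : F) - 1) * (φ ⬝ᵥ x.1) = 0 := by rw [sub_mul, h3, one_mul, sub_self]
      exact (mul_eq_zero.1 this).resolve_left hs1
    rw [h5, mul_zero, zero_smul, add_zero] at h2
    have h6 : ((s : F) - 1) • x.1 = 0 := by rw [sub_smul, h2, one_smul, sub_self]
    exact x.2 ((smul_eq_zero.1 h6).resolve_left hs1)
  have hdiff : P1 1 - P1 (tr u φ) = (Fintype.card F : ℂ) ^ (m - 1) := by
    rw [hv1, hvt]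
    obtain ⟨r, rfl⟩ : ∃ r, m = r + 1 := ⟨m - 1, by omega⟩
    simp only [Nat.add_sub_cancel]
    field_simp
    ring
  -- split off `σ`
  obtain ⟨ψ, hψ, hP1eq⟩ := exists_add_of_classInner_ne_zero hP1 hσ hP1σ
  obtain ⟨aσ, haσ, haσ0⟩ := char_transvection m hm σ hσc
  obtain ⟨aψ, haψ, haψ0⟩ := char_transvection m hm ψ hψ
  have hqm : ((Fintype.card F : ℂ) ^ (m - 1)) ≠ 0 := by
    apply pow_ne_zero
    exact_mod_cast (by omega : Fintype.card F ≠ 0)
  have hadd : aσ + aψ = 1 := by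
    have e1 := haσ u φ hu hφ h0
    have e2 := haψ u φ hu hφ h0
    have e3 : ((aσ : ℂ) + aψ) * (Fintype.card F : ℂ) ^ (m - 1) = 1 * (Fintype.card F : ℂ) ^ (m - 1) := by
      rw [add_mul, ← e1, ← e2, one_mul, ← hdiff, hP1eq]
      simp only [Pi.add_apply]
      ring
    have e4 := mul_right_cancel₀ hqm e3
    exact_mod_cast e4
  have hone : Cfsg.IsIrrCharacter (SpecialLinearGroup (Fin m) F) (fun _ => 1) :=
    Helper4.isIrrCharacter_one
  obtain ⟨k, hk0, hk⟩ := Helper83.isIrr_one hσ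
  have haσne : aσ ≠ 0 := by
    intro h
    have hc := haσ0 h
    have e1 := d_const_inner σ hc
    rw [Helper20.classInner_irr_ne hσ hone h1, hk] at e1
    have : k = 0 := by exact_mod_cast e1.symm
    omega
  have haψ' : aψ = 0 := by omega
  have hψc := haψ0 haψ'
  obtain ⟨f, hf⟩ := Helper20.isCharacter_classInner_nat hψ hone
  obtain ⟨f2, hf2⟩ := Helper20.isCharacter_classInner_nat hP2 hone
  have hψ1 : ψ 1 = f := by rw [← hf, d_const_inner ψ hψc]
  have hfle : f ≤ 1 := by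
    have e1 := Helper96.classInner_perm_one (G := SpecialLinearGroup (Fin m) F) (Ω := NZ m F)
    rw [hfix, hsum, hP1eq, Helper20.classInner_add_left, Helper20.classInner_add_left,
      Helper20.classInner_irr_ne hσ hone h1, hf, hf2] at e1
    have : 0 + f + f2 = 1 := by exact_mod_cast e1
    omega
  refine ⟨k, hk, d_arith _ m k f hq2 hfle ?_⟩
  have e1 : P1 1 = σ 1 + ψ 1 := by rw [hP1eq]; rfl
  rw [hv1, hk, hψ1] at e1
  have e2 : ((k : ℂ) + f) * ((Fintype.card F : ℂ) - 1) + 1 = (Fintype.card F : ℂ) ^ m := by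
    rw [← e1]
    field_simp
    ring
  have e3 : (((k + f) * (Fintype.card F - 1) + 1 : ℕ) : ℂ) = ((Fintype.card F ^ m : ℕ) : ℂ) := by
    push_cast [Nat.cast_sub (by omega : 1 ≤ Fintype.card F)]
    exact e2
  exact_mod_cast e3

end Cfsg.Agent.Lib.Helper44.SLW
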