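import Mathlib
import Cfsg.Agent.Lib.Helper44.SLW.Core5
import Cfsg.Agent.Lib.Helper44.SLW.D
import Cfsg.Agent.Lib.Helper20.CharComplete

/-!
# Ladder SLWEIL: lower bound for the fixed space of the opposite radical, `n ≥ 4`
-/

set_option autoImplicit false
set_option linter.unusedSectionVars false

namespace Cfsg.Agent.Lib.Helper44.SLW

open Matrix Cfsg
open Cfsg.Agent.Lib.Helper5.MinIdx
open Cfsg.Agent.Lib.Helper18.AutPSL

theorem avg_mul {S : Type*} [Group S] [Fintype S] {d : ℕ} (T : S →* Matrix (Fin d) (Fin d) ℂ) (s : S) :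
    avg T * T s = avg T := by
  unfold avg
  rw [Matrix.smul_mul, Finset.sum_mul]
  congr 1
  rw [← Equiv.sum_comp (Equiv.mulRight s) (fun x => T x)]
  exact Finset.sum_congr rfl fun x _ => by rw [Equiv.coe_mulRight, map_mul]

theorem sum_subgroup_eq {G : Type*} [Group G] [Fintype G] (S : Subgroup G) [Fintype S]
    (p : G → Prop) [DecidablePred p] (hp : ∀ g, g ∈ S ↔ p g) (f : G → ℂ) :
    ∑ s : S, f s = ∑ g, if p g then f g else 0 := by
  classical
  rw [← Finset.sum_filter]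
  exact (Finset.sum_subtype (Finset.univ.filter p) (by intro x; simp [hp]) f).symm

variable {F : Type*} [Field F] {m : ℕ}

/-- the stabiliser of `e0` -/
def stab0 (F : Type*) [Field F] (m : ℕ) : Subgroup (SpecialLinearGroup (Fin (m + 1)) F) where
  carrier := {A | A.1 *ᵥ e0 = e0}
  one_mem' := by show (1 : Matrix _ _ F) *ᵥ e0 = e0; rw [one_mulVec]
  mul_mem' := by
    intro a b ha hb
    show (a.1 * b.1) *ᵥ e0 = e0
    have ha' : a.1 *ᵥ e0 = e0 := ha
    have hb' : b.1 *ᵥ e0 = e0 := hb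
    rw [← mulVec_mulVec, hb', ha']
  inv_mem' := by
    intro a ha
    show (a⁻¹).1 *ᵥ e0 = e0
    have ha' : a.1 *ᵥ e0 = e0 := ha
    conv_lhs => rw [← ha', mulVec_mulVec, inv_mul_val, one_mulVec]

variable [Fintype F] [DecidableEq F] {d : ℕ} {ψ : AddChar F ℂ}

/-- everything that follows from `a = 1` -/
theorem A1.pack (hm : 1 ≤ m)
    (hex : (m + 2, Fintype.card F) ≠ (3, 2) ∧ (m + 2, Fintype.card F) ≠ (3, 4) ∧
      (m + 2, Fintype.card F) ≠ (4, 2) ∧ (m + 2, Fintype.card F) ≠ (4, 3))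
    (hψ : ψ.IsPrimitive)
    {R : SpecialLinearGroup (Fin (m + 2)) F →* Matrix (Fin d) (Fin d) ℂ} (h : A1 R) :
    d = (EE ψ R 0).rank + (Fintype.card F ^ (m + 1) - 1) ∧
    (∀ A : SpecialLinearGroup (Fin (m + 1)) F, A.1 *ᵥ e0 = e0 →
      R (lev A) * EE ψ R e0 = EE ψ R e0) ∧
    (∀ A : SpecialLinearGroup (Fin (m + 1)) F, (R (lev A)).trace = (R (lev A) * EE ψ R 0).trace +
      ((Finset.univ.filter (fun c : Fin (m + 1) → F => c ≠ 0 ∧ A.1 *ᵥ c = c)).card : ℂ)) := by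
  obtain ⟨hr, hd⟩ := h.rank hm hψ
  have hfix := stab_fix hm hex hψ R (hr e0 e0_ne_zero)
  exact ⟨hd, hfix, trace_lev hψ R hr (stab_fix' hm R hfix)⟩

/-- trace of a transvection of the Levi factor on the fixed space of `rad` -/
theorem A1.trace_rad (hm : 1 ≤ m)
    (hex : (m + 2, Fintype.card F) ≠ (3, 2) ∧ (m + 2, Fintype.card F) ≠ (3, 4) ∧
      (m + 2, Fintype.card F) ≠ (4, 2) ∧ (m + 2, Fintype.card F) ≠ (4, 3))
    (hψ : ψ.IsPrimitive)
    {R : SpecialLinearGroup (Fin (m + 2)) F →* Matrix (Fin d) (Fin d) ℂ} (h : A1 R)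
    (y : Fin m → F) (hy : y ≠ 0) :
    (R (lev (rad y)) * EE ψ R 0).trace + 1 +
      ((Finset.univ.filter (fun c : Fin (m + 1) → F => c ≠ 0 ∧ (rad y).1 *ᵥ c = c)).card : ℂ)
      = ((EE ψ R 0).rank : ℂ) := by
  obtain ⟨hd, -, htr⟩ := h.pack hm hex hψ
  have h1 := htr (rad y)
  have h2 : (R (lev (rad y))).trace = (d : ℂ) - (Fintype.card F : ℂ) ^ (m + 1) := by
    unfold rad
    rw [lev_tr _ _ (cons_zero_dot_e0 y)]
    exact h _ _ (cons_zero_ne_zero e0_ne_zero) (cons_zero_ne_zero (cons_zero_ne_zero hy))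
      (by rw [cons_dot_cons, cons_zero_dot_e0]; simp)
  have hq : 1 ≤ Fintype.card F ^ (m + 1) := Nat.one_le_pow _ _ Fintype.card_pos
  have hd' : (d : ℂ) = ((EE ψ R 0).rank : ℂ) + ((Fintype.card F : ℂ) ^ (m + 1) - 1) := by
    have := congrArg (Nat.cast : ℕ → ℂ) hd
    push_cast [Nat.cast_sub hq] at this
    exact this
  rw [h2] at h1
  linear_combination hd' - h1

theorem A1.gamma (hm : 1 ≤ m)
    (hex : (m + 2, Fintype.card F) ≠ (3, 2) ∧ (m + 2, Fintype.card F) ≠ (3, 4) ∧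
      (m + 2, Fintype.card F) ≠ (4, 2) ∧ (m + 2, Fintype.card F) ≠ (4, 3))
    (hψ : ψ.IsPrimitive)
    {R : SpecialLinearGroup (Fin (m + 2)) F →* Matrix (Fin d) (Fin d) ℂ} (h : A1 R) :
    ∃ A : SpecialLinearGroup (Fin (m + 1)) F, R (lev A) * EE ψ R 0 ≠ EE ψ R 0 := by
  have hy : (fun _ => 1 : Fin m → F) ≠ 0 := by
    intro h0
    have := congrFun h0 ⟨0, by omega⟩
    simp at this
  refine ⟨rad (fun _ => 1), fun hcon => ?_⟩
  have h1 := h.trace_rad hm hex hψ _ hy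
  rw [hcon, trace_EE R hψ] at h1
  have h2 : ((1 + (Finset.univ.filter (fun c : Fin (m + 1) → F => c ≠ 0 ∧
      (rad (fun _ => 1 : Fin m → F)).1 *ᵥ c = c)).card : ℕ) : ℂ) = 0 := by
    push_cast
    linear_combination h1
  have h3 : 1 + (Finset.univ.filter (fun c : Fin (m + 1) → F => c ≠ 0 ∧
      (rad (fun _ => 1 : Fin m → F)).1 *ᵥ c = c)).card = 0 := by exact_mod_cast h2
  omega

end Cfsg.Agent.Lib.Helper44.SLW
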