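import Mathlib
import Cfsg.Agent.Lib.Helper44.SLW.Core6

/-!
# Ladder SLWEIL: lower bound for the fixed space of the opposite radical, `n ≥ 4`
-/

set_option autoImplicit false
set_option linter.unusedSectionVars false

namespace Cfsg.Agent.Lib.Helper44.SLW

open Matrix Cfsg
open Cfsg.Agent.Lib.Helper5.MinIdx
open Cfsg.Agent.Lib.Helper18.AutPSL
open scoped ComplexConjugate

theorem idem_mul_of_comm {d : ℕ} {P E : Matrix (Fin d) (Fin d) ℂ} (hP : P * P = P) (hE : E * E = E)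
    (h : P * E = E * P) : (P * E) * (P * E) = P * E := by
  calc (P * E) * (P * E) = P * (E * P) * E := by simp only [mul_assoc]
    _ = P * (P * E) * E := by rw [h]
    _ = (P * P) * (E * E) := by simp only [mul_assoc]
    _ = P * E := by rw [hP, hE]

/-- a character with non zero sum over a subgroup and no trivial constituent -/
theorem exists_irr_of_sum_ne_zero {H : Type*} [Group H] [Fintype H] {β : H → ℂ} (hβ : IsCharacter H β)
    (hβ1 : classInner β (fun _ => 1) = 0) (S : Subgroup H) [Fintype S] (hsum : ∑ s : S, β s ≠ 0) :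
    ∃ χ : H → ℂ, IsIrrCharacter H χ ∧ χ ≠ (fun _ => 1) ∧ ∑ s : S, χ s ≠ 0 ∧
      ∃ n' : ℕ, β 1 = χ 1 + n' := by
  classical
  have : Finite (IrrCharacter H) := Cfsg.Agent.Lib.Helper20.finite_irrCharacter
  have : Fintype (IrrCharacter H) := Fintype.ofFinite _
  have hexp := Cfsg.Agent.Lib.Helper20.eq_sum_classInner_smul
    (Cfsg.Agent.Lib.Helper20.isClassFunction_of_isCharacter hβ)
  obtain ⟨χ, hχ1, hχ2⟩ : ∃ χ : IrrCharacter H,
      classInner β (χ : H → ℂ) ≠ 0 ∧ ∑ s : S, (χ : H → ℂ) s ≠ 0 := by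
    by_contra hcon
    push Not at hcon
    apply hsum
    have h1 : ∀ s : S, β s = ∑ χ : IrrCharacter H, classInner β (χ : H → ℂ) * (χ : H → ℂ) s := by
      intro s
      conv_lhs => rw [hexp]
      simp [Finset.sum_apply]
    rw [Finset.sum_congr rfl (fun s _ => h1 s), Finset.sum_comm]
    apply Finset.sum_eq_zero
    intro χ _
    rw [← Finset.mul_sum]
    by_cases h2 : classInner β (χ : H → ℂ) = 0
    · rw [h2, zero_mul]
    · rw [hcon χ h2, mul_zero]
  refine ⟨χ, χ.2, ?_, hχ2, ?_⟩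
  · intro h
    rw [h] at hχ1
    exact hχ1 hβ1
  · obtain ⟨φ, hφ, hβφ⟩ := exists_add_of_classInner_ne_zero hβ χ.2 hχ1
    obtain ⟨n', hn'⟩ := Cfsg.Agent.Lib.Helper20.isCharacter_apply_one hφ
    exact ⟨n', by rw [hβφ, Pi.add_apply, hn']⟩

theorem exists_constituent {H : Type*} [Group H] [Fintype H] {d : ℕ}
    (T : H →* Matrix (Fin d) (Fin d) ℂ) (E : Matrix (Fin d) (Fin d) ℂ) (hE : E * E = E)
    (hTE : ∀ A, T A * E = E * T A) (hne : ∃ A, T A * E ≠ E) (S : Subgroup H) [Fintype S]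
    (hkey : ∀ Y : Matrix (Fin d) (Fin d) ℂ, (∀ A, T A * Y = Y * T A) → E * Y = Y → Y ≠ 0 →
      avg (T.comp S.subtype) * Y ≠ 0) :
    ∃ χ : H → ℂ, IsIrrCharacter H χ ∧ χ ≠ (fun _ => 1) ∧ ∑ s : S, χ s ≠ 0 ∧
      ∀ k : ℕ, χ 1 = k → k ≤ E.rank := by
  classical
  have hPE : avg T * E = E * avg T := avg_comm T E hTE
  have hPP : avg T * avg T = avg T := avg_idem T
  have hPEi : (avg T * E) * (avg T * E) = avg T * E := idem_mul_of_comm hPP hE hPE
  obtain ⟨Y, hYdef⟩ : ∃ Y, Y = E - avg T * E := ⟨_, rfl⟩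
  have hEY : E * Y = Y := by
    rw [hYdef, mul_sub, hE, ← mul_assoc, ← hPE, mul_assoc, hE]
  have hPY : avg T * Y = 0 := by
    rw [hYdef, mul_sub, ← mul_assoc, hPP, sub_self]
  have hYY : Y * Y = Y := by
    have h1 : Y * Y = (E - avg T * E) * Y := by rw [← hYdef]
    rw [h1, sub_mul, hEY, mul_assoc, hEY, hPY, sub_zero]
  have hYc : ∀ A, T A * Y = Y * T A := by
    intro A
    rw [hYdef, mul_sub, sub_mul, hTE, ← mul_assoc, mul_avg, mul_assoc (avg T), ← hTE,
      ← mul_assoc (avg T), avg_mul]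
  have hY0 : Y ≠ 0 := by
    intro h
    obtain ⟨A, hAne⟩ := hne
    apply hAne
    have h1 : E = avg T * E := by
      rw [hYdef] at h
      exact sub_eq_zero.mp h
    conv_lhs => rw [h1, ← mul_assoc, mul_avg]
    exact h1.symm
  have hβ : IsCharacter H (fun A => (T A * Y).trace) := isCharacter_trace_mul_idem T Y hYY hYc
  have hβ1 : classInner (fun A => (T A * Y).trace) (fun _ => 1) = 0 := by
    unfold classInner
    have h1 := trace_avg_mul T Y
    rw [hPY, trace_zero] at h1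
    rw [Nat.card_eq_fintype_card]
    simp only [map_one, mul_one]
    exact h1.symm
  have hk := hkey Y hYc hEY hY0
  have hPSY : avg (T.comp S.subtype) * Y = Y * avg (T.comp S.subtype) :=
    avg_comm _ Y (fun s => hYc s.1)
  have hPSi := idem_mul_of_comm (avg_idem (T.comp S.subtype)) hYY hPSY
  have hsum : ∑ s : S, (fun A => (T A * Y).trace) s ≠ 0 := by
    intro hz
    apply hk
    apply eq_zero_of_rank_eq_zero
    have h1 := trace_eq_rank_of_idem _ hPSi
    have h2 := trace_avg_mul (T.comp S.subtype) Y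
    have h3 : ∑ s : S, ((T.comp S.subtype) s * Y).trace = 0 := hz
    rw [h3, mul_zero] at h2
    rw [h2] at h1
    exact_mod_cast h1.symm
  obtain ⟨χ, hχ, hχne, hχS, n', hn'⟩ := exists_irr_of_sum_ne_zero hβ hβ1 S hsum
  refine ⟨χ, hχ, hχne, hχS, ?_⟩
  intro k hk1
  have h6 : (T 1 * Y).trace = χ 1 + n' := hn'
  rw [map_one, one_mul, hk1] at h6
  have h7 : Y.trace = (E.rank : ℂ) - ((avg T * E).rank : ℂ) := by
    rw [hYdef, trace_sub, trace_eq_rank_of_idem _ hE, trace_eq_rank_of_idem _ hPEi]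
  have h8 : ((k + n' + (avg T * E).rank : ℕ) : ℂ) = (E.rank : ℂ) := by
    push_cast
    rw [← h6, h7]
    ring
  have h9 : k + n' + (avg T * E).rank = E.rank := by exact_mod_cast h8
  omega

variable {F : Type*} [Field F] [Fintype F] [DecidableEq F] {m d : ℕ} {ψ : AddChar F ℂ}

/-- RUNG C1. -/
theorem bound_ge3 (hm : 2 ≤ m)
    (hex : (m + 2, Fintype.card F) ≠ (3, 2) ∧ (m + 2, Fintype.card F) ≠ (3, 4) ∧
      (m + 2, Fintype.card F) ≠ (4, 2) ∧ (m + 2, Fintype.card F) ≠ (4, 3))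
    (hψ : ψ.IsPrimitive)
    (R : SpecialLinearGroup (Fin (m + 2)) F →* Matrix (Fin d) (Fin d) ℂ) (hA : A1 R)
    (h0 : ∑ g, (R g).trace = 0) :
    (Fintype.card F ^ (m + 1) - Fintype.card F) / (Fintype.card F - 1) ≤ (EE ψ (tw R) 0).rank := by
  classical
  have hm1 : 1 ≤ m := by omega
  have : Fintype (stab0 F m) := Fintype.ofFinite _
  obtain ⟨-, hfix, -⟩ := hA.pack hm1 hex hψ
  have hne : ∃ A, (R.comp lev) A * EE ψ (tw R) 0 ≠ EE ψ (tw R) 0 := by
    obtain ⟨A, hAne⟩ := hA.tw.gamma hm1 hex hψ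
    refine ⟨invT A, ?_⟩
    have h2 : tw R (lev A) = (R.comp lev) (invT A) := by
      rw [tw_apply, invT_lev]; rfl
    rwa [h2] at hAne
  obtain ⟨χ, hχ, hχne, hχS, hk⟩ := exists_constituent (R.comp lev) (EE ψ (tw R) 0)
    (EE_idem (tw R) hψ 0) (fun A => lev_comm_E2 R A) hne (stab0 F m)
    (fun Y hYc hEY hY0 => key_ne_zero hm1 hψ R h0 hfix Y hYc hEY hY0 (stab0 F m).subtype
      (fun s => s.2))
  have hS : ∑ g : SpecialLinearGroup (Fin (m + 1)) F, (if g.1 *ᵥ e0 = e0 then χ g else 0) ≠ 0 := by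
    rw [← sum_subgroup_eq (stab0 F m) (fun g => g.1 *ᵥ e0 = e0) (fun g => Iff.rfl)]
    exact hχS
  obtain ⟨k, hk1, hk2⟩ := weil_degree_bound (m + 1) (by omega) χ hχ hχne e0 e0_ne_zero hS
  exact hk2.trans (hk k hk1)

end Cfsg.Agent.Lib.Helper44.SLW
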