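import Mathlib
import Cfsg.Agent.Lib.Helper44.SLW.Core7

/-!
# Ladder SLWEIL: lower bound for the fixed space of the opposite radical, `n = 3`
-/

set_option autoImplicit false
set_option linter.unusedSectionVars false

namespace Cfsg.Agent.Lib.Helper44.SLW

open Matrix Cfsg
open Cfsg.Agent.Lib.Helper5.MinIdx
open Cfsg.Agent.Lib.Helper18.AutPSL

variable {F : Type*} [Field F] {m : ℕ}

/-- `rad` as a homomorphism -/
noncomputable def radHom : Multiplicative (Fin m → F) →* SpecialLinearGroup (Fin (m + 1)) F where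
  toFun y := rad (Multiplicative.toAdd y)
  map_one' := by
    show rad (0 : Fin m → F) = 1
    have := rad_add (0 : Fin m → F) 0
    rw [add_zero] at this
    exact (mul_eq_left.mp this.symm)
  map_mul' x y := rad_add _ _

theorem rad_mulVec_e0 (y : Fin m → F) : (rad y).1 *ᵥ e0 = e0 := by
  unfold rad
  rw [tr_mulVec (cons_zero_dot_e0 y), cons_zero_dot_e0, zero_smul, add_zero]

variable [Fintype F] [DecidableEq F] {d : ℕ} {ψ : AddChar F ℂ}

/-- trace of a transvection of the Levi factor on the fixed space of `rad` -/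
theorem A1.trace_tr (hm : 1 ≤ m)
    (hex : (m + 2, Fintype.card F) ≠ (3, 2) ∧ (m + 2, Fintype.card F) ≠ (3, 4) ∧
      (m + 2, Fintype.card F) ≠ (4, 2) ∧ (m + 2, Fintype.card F) ≠ (4, 3))
    (hψ : ψ.IsPrimitive)
    {R : SpecialLinearGroup (Fin (m + 2)) F →* Matrix (Fin d) (Fin d) ℂ} (h : A1 R)
    (a φ : Fin (m + 1) → F) (ha : a ≠ 0) (hφ : φ ≠ 0) (haφ : φ ⬝ᵥ a = 0) :
    (R (lev (tr a φ)) * EE ψ R 0).trace + 1 +
      ((Finset.univ.filter (fun c : Fin (m + 1) → F => c ≠ 0 ∧ (tr a φ).1 *ᵥ c = c)).card : ℂ)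
      = ((EE ψ R 0).rank : ℂ) := by
  obtain ⟨hd, -, htr⟩ := h.pack hm hex hψ
  have h1 := htr (tr a φ)
  have h2 : (R (lev (tr a φ))).trace = (d : ℂ) - (Fintype.card F : ℂ) ^ (m + 1) := by
    rw [lev_tr _ _ haφ]
    exact h _ _ (cons_zero_ne_zero ha) (cons_zero_ne_zero hφ) (by rw [cons_dot_cons, haφ]; simp)
  have hq : 1 ≤ Fintype.card F ^ (m + 1) := Nat.one_le_pow _ _ Fintype.card_pos
  have hd' : (d : ℂ) = ((EE ψ R 0).rank : ℂ) + ((Fintype.card F : ℂ) ^ (m + 1) - 1) := by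
    have := congrArg (Nat.cast : ℕ → ℂ) hd
    push_cast [Nat.cast_sub hq] at this
    exact this
  rw [h2] at h1
  linear_combination hd' - h1

theorem card_fix_ge (y : Fin 1 → F) :
    Fintype.card F - 1 ≤ (Finset.univ.filter (fun c : Fin (1 + 1) → F => c ≠ 0 ∧
      (tr (Fin.cons 0 y : Fin (1 + 1) → F) (-e0)).1 *ᵥ c = c)).card := by
  rw [← Fintype.card_units, ← Finset.card_univ]
  refine Finset.card_le_card_of_injOn (fun s : Fˣ => (Fin.cons 0 (fun _ => (s : F)) : Fin (1 + 1) → F))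
    ?_ ?_
  · intro s _
    simp only [Finset.coe_filter, Finset.mem_univ, true_and, Set.mem_ofPred_eq]
    constructor
    · intro h0
      have := congrFun h0 (Fin.succ 0)
      simp at this
    · have h1 : (-e0 : Fin (1 + 1) → F) ⬝ᵥ (Fin.cons 0 y : Fin (1 + 1) → F) = 0 := by
        rw [neg_dotProduct, dotProduct_comm, cons_zero_dot_e0, neg_zero]
      rw [tr_mulVec h1, neg_dotProduct, dotProduct_comm, cons_zero_dot_e0, neg_zero, zero_smul,
        add_zero]
  · intro s _ s' _ h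
    have := congrFun h (Fin.succ 0)
    simp only [Fin.cons_succ] at this
    exact Units.ext this

/-- RUNG C1'. -/
theorem bound_eq3
    (hex : (1 + 2, Fintype.card F) ≠ (3, 2) ∧ (1 + 2, Fintype.card F) ≠ (3, 4) ∧
      (1 + 2, Fintype.card F) ≠ (4, 2) ∧ (1 + 2, Fintype.card F) ≠ (4, 3))
    (hψ : ψ.IsPrimitive)
    (R : SpecialLinearGroup (Fin (1 + 2)) F →* Matrix (Fin d) (Fin d) ℂ) (hA : A1 R)
    (h0 : ∑ g, (R g).trace = 0) : Fintype.card F ≤ (EE ψ (tw R) 0).rank := by
  classical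
  obtain ⟨-, hfix, -⟩ := hA.pack le_rfl hex hψ
  obtain ⟨E, hEdef⟩ : ∃ E, E = EE ψ (tw R) 0 := ⟨_, rfl⟩
  have hE : E * E = E := by rw [hEdef]; exact EE_idem (tw R) hψ 0
  have hE0 : E ≠ 0 := by
    intro h
    obtain ⟨A, hAne⟩ := hA.tw.gamma le_rfl hex hψ
    apply hAne
    rw [← hEdef, h, mul_zero]
  have hTE : ∀ A : SpecialLinearGroup (Fin (1 + 1)) F, R (lev A) * E = E * R (lev A) := by
    intro A; rw [hEdef]; exact lev_comm_E2 R A
  have hkey := key_ne_zero le_rfl hψ R h0 hfix E hTE (by rw [← hEdef]; exact hE) hE0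
    (radHom (F := F) (m := 1)) (fun s => rad_mulVec_e0 _)
  have hPSE := avg_comm ((R.comp lev).comp (radHom (F := F) (m := 1))) E (fun s => hTE _)
  have hPSi := idem_mul_of_comm (avg_idem _) hE hPSE
  have h1 := trace_eq_rank_of_idem _ hPSi
  have hr : 1 ≤ (avg ((R.comp lev).comp (radHom (F := F) (m := 1))) * E).rank := by
    rw [Nat.one_le_iff_ne_zero]
    intro h
    exact hkey (eq_zero_of_rank_eq_zero _ h)
  obtain ⟨r, hrdef⟩ : ∃ r, r = (avg ((R.comp lev).comp (radHom (F := F) (m := 1))) * E).rank :=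
    ⟨_, rfl⟩
  rw [← hrdef] at h1 hr
  rw [trace_avg_mul] at h1
  have hcard : Fintype.card (Multiplicative (Fin 1 → F)) = Fintype.card F := by
    rw [Fintype.card_multiplicative]
    simp
  rw [hcard] at h1
  have hq0 : (Fintype.card F : ℂ) ≠ 0 := by
    have : 0 < Fintype.card F := Fintype.card_pos
    exact_mod_cast this.ne'
  have h2 : ∑ y : Fin 1 → F, (R (lev (rad y)) * E).trace = (Fintype.card F : ℂ) * r := by
    rw [← h1, ← mul_assoc, mul_inv_cancel₀ hq0, one_mul]
    exact Fintype.sum_equiv Multiplicative.ofAdd _ _ (fun y => rfl)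
  obtain ⟨f, hf⟩ : ∃ f : (Fin 1 → F) → ℕ, f = fun y =>
      (Finset.univ.filter (fun c : Fin (1 + 1) → F => c ≠ 0 ∧
        (tr (Fin.cons 0 y : Fin (1 + 1) → F) (-e0)).1 *ᵥ c = c)).card := ⟨_, rfl⟩
  have h3 : ∀ y : Fin 1 → F, y ≠ 0 → (R (lev (rad y)) * E).trace + 1 + (f y : ℂ) = (E.rank : ℂ) := by
    intro y hy
    have h4 := hA.tw.trace_tr le_rfl hex hψ (Fin.cons 0 y : Fin (1 + 1) → F) (-e0)
      (cons_zero_ne_zero hy) (neg_ne_zero.mpr e0_ne_zero)
      (by rw [neg_dotProduct, dotProduct_comm, cons_zero_dot_e0, neg_zero])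
    have h5 : tr (Fin.cons 0 y : Fin (1 + 1) → F) (-e0) = invT (rad y) := by
      unfold rad; rw [invT_tr]
    rw [hf, hEdef]
    rw [h5, tw_lev] at h4
    rw [← h5] at h4
    exact h4
  have hfge : ∀ y, Fintype.card F - 1 ≤ f y := by
    intro y; rw [hf]; exact card_fix_ge y
  rw [← Finset.add_sum_erase _ _ (Finset.mem_univ (0 : Fin 1 → F))] at h2
  have h6 : rad (0 : Fin 1 → F) = 1 := (radHom (F := F) (m := 1)).map_one
  rw [h6, map_one, map_one, one_mul, trace_eq_rank_of_idem _ hE] at h2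
  have h7 : ∑ y ∈ Finset.univ.erase (0 : Fin 1 → F), (R (lev (rad y)) * E).trace
      = ∑ y ∈ Finset.univ.erase (0 : Fin 1 → F), ((E.rank : ℂ) - ((1 + f y : ℕ) : ℂ)) := by
    refine Finset.sum_congr rfl fun y hy => ?_
    have := h3 y (Finset.ne_of_mem_erase hy)
    push_cast
    linear_combination this
  have hce : (Finset.univ.erase (0 : Fin 1 → F)).card = Fintype.card F - 1 := by
    rw [Finset.card_erase_of_mem (Finset.mem_univ _), Finset.card_univ]
    simp
  have hq1 : 1 ≤ Fintype.card F := Fintype.card_pos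
  rw [h7, Finset.sum_sub_distrib, Finset.sum_const, hce, nsmul_eq_mul, ← Nat.cast_sum] at h2
  have h8 : ((Fintype.card F * r + ∑ y ∈ Finset.univ.erase (0 : Fin 1 → F), (1 + f y) : ℕ) : ℂ)
      = ((Fintype.card F * E.rank : ℕ) : ℂ) := by
    push_cast [Nat.cast_sub hq1] at h2 ⊢
    linear_combination -h2
  have h9 : Fintype.card F * r + ∑ y ∈ Finset.univ.erase (0 : Fin 1 → F), (1 + f y)
      = Fintype.card F * E.rank := by exact_mod_cast h8
  have h10 : (Fintype.card F - 1) * Fintype.card F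
      ≤ ∑ y ∈ Finset.univ.erase (0 : Fin 1 → F), (1 + f y) := by
    rw [← hce, ← smul_eq_mul, ← Finset.sum_const]
    refine Finset.sum_le_sum fun y _ => ?_
    have := hfge y
    omega
  rw [← hEdef]
  have h11 : Fintype.card F * Fintype.card F ≤ Fintype.card F * E.rank := by
    rw [← h9]
    have h12 : Fintype.card F * 1 ≤ Fintype.card F * r := Nat.mul_le_mul_left _ hr
    have h13 : Fintype.card F * Fintype.card F
        = Fintype.card F * 1 + (Fintype.card F - 1) * Fintype.card F := by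
      obtain ⟨k, hk⟩ := Nat.exists_eq_add_of_le hq1
      rw [hk]
      have : 1 + k - 1 = k := by omega
      rw [this]; ring
    omega
  exact Nat.le_of_mul_le_mul_left h11 (by omega)

end Cfsg.Agent.Lib.Helper44.SLW
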