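import Mathlib
import Cfsg.Prelude.Def_Characters
import Cfsg.Agent.S0157

set_option autoImplicit false

namespace Cfsg.Agent.Lib.Helper44.SLW

open Matrix
open scoped LinearAlgebra.Projectivization

/-- RUNG E. The doubly transitive action on the projective space gives an irreducible
representation of degree `(q^n - 1)/(q - 1) - 1 = (q^n - q)/(q - 1)`. -/
theorem exists_irr_rep {F : Type*} [Field F] [Fintype F] [DecidableEq F] (n : ℕ) (hn : 3 ≤ n) :
    ∃ ρ : Representation ℂ (SpecialLinearGroup (Fin n) F)
      (Fin ((Fintype.card F ^ n - Fintype.card F) / (Fintype.card F - 1)) → ℂ), ρ.IsIrreducible := by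
  classical
  have hq : 2 ≤ Fintype.card F := Fintype.one_lt_card
  have hfin : Finite (ℙ F (Fin n → F)) := inferInstance
  have hcard := Projectivization.card' F (Fin n → F)
  rw [Nat.card_eq_fintype_card (α := Fin n → F), Fintype.card_fun, Fintype.card_fin,
    Nat.card_eq_fintype_card (α := F)] at hcard
  set N := Nat.card (ℙ F (Fin n → F)) with hN
  set q := Fintype.card F with hqdef
  have hqn : q * q ≤ q ^ n := by
    calc q * q = q ^ 2 := (sq q).symm
      _ ≤ q ^ n := Nat.pow_le_pow_right (by omega) (by omega)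
  have hN2 : 2 ≤ N := by
    by_contra h
    have h1 : N ≤ 1 := by omega
    have h2 : N * (q - 1) ≤ 1 * (q - 1) := Nat.mul_le_mul_right _ h1
    have h3 : q * 2 ≤ q * q := Nat.mul_le_mul_left _ hq
    omega
  have htr : MulAction.IsPretransitive (SpecialLinearGroup (Fin n) F) (ℙ F (Fin n → F)) :=
    MulAction.isPretransitive_of_is_two_pretransitive
  have hirr := (Cfsg.Agent.S0157.result (G := SpecialLinearGroup (Fin n) F)
    (ℙ F (Fin n → F)) hN2).mpr inferInstance
  obtain ⟨k, ρ, hρ, hchar⟩ := hirr
  have h1 := congrFun hchar 1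
  rw [Representation.char_one, Module.finrank_fin_fun] at h1
  have hfix : Nat.card (MulAction.fixedBy (ℙ F (Fin n → F)) (1 : SpecialLinearGroup (Fin n) F))
      = N := by
    have : MulAction.fixedBy (ℙ F (Fin n → F)) (1 : SpecialLinearGroup (Fin n) F) = Set.univ := by
      ext x
      simp [MulAction.mem_fixedBy]
    rw [this, Nat.card_congr (Equiv.Set.univ _)]
  simp only [hfix] at h1
  have hk : k + 1 = N := by
    have : ((k + 1 : ℕ) : ℂ) = (N : ℂ) := by
      push_cast
      rw [h1]
      ring
    exact_mod_cast this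
  have hdeg : (q ^ n - q) / (q - 1) = k := by
    have h2 : q ^ n - q = k * (q - 1) := by
      rw [hcard, ← hk, add_mul, one_mul]
      omega
    rw [h2, Nat.mul_div_cancel _ (by omega)]
  rw [hdeg]
  exact ⟨ρ, hρ⟩

end Cfsg.Agent.Lib.Helper44.SLW
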