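import Mathlib
import Cfsg.Agent.Lib.Helper5.MinIdx.Lin
import Cfsg.Agent.Lib.Helper4.CharIntegral

set_option autoImplicit false

namespace Cfsg.Agent.Lib.Helper44.SLW

open Matrix
open Cfsg.Agent.Lib.Helper5.MinIdx

section aux

variable {F : Type*} [Field F] [Fintype F] [DecidableEq F] {n : ℕ}

/-- the pairs (centre, axis) of the transvections -/
def tvPairs (F : Type*) [Field F] [Fintype F] [DecidableEq F] (n : ℕ) :
    Finset ((Fin n → F) × (Fin n → F)) :=
  Finset.univ.filter fun p => p.1 ≠ 0 ∧ p.2 ≠ 0 ∧ p.2 ⬝ᵥ p.1 = 0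

theorem mem_tvPairs {p : (Fin n → F) × (Fin n → F)} :
    p ∈ tvPairs F n ↔ p.1 ≠ 0 ∧ p.2 ≠ 0 ∧ p.2 ⬝ᵥ p.1 = 0 := by
  simp [tvPairs]

/-- the action of `SL_n` on the pairs -/
def pairEquiv (h : SpecialLinearGroup (Fin n) F) :
    ((Fin n → F) × (Fin n → F)) ≃ ((Fin n → F) × (Fin n → F)) where
  toFun p := (h.1 *ᵥ p.1, p.2 ᵥ* (h⁻¹).1)
  invFun p := ((h⁻¹).1 *ᵥ p.1, p.2 ᵥ* h.1)
  left_inv p := by
    simp only [Matrix.mulVec_mulVec, Matrix.vecMul_vecMul, inv_mul_val, Matrix.one_mulVec,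
      Matrix.vecMul_one]
  right_inv p := by
    simp only [Matrix.mulVec_mulVec, Matrix.vecMul_vecMul, mul_inv_val, Matrix.one_mulVec,
      Matrix.vecMul_one]

theorem pairEquiv_mem (h : SpecialLinearGroup (Fin n) F) {p : (Fin n → F) × (Fin n → F)}
    (hp : p ∈ tvPairs F n) : pairEquiv h p ∈ tvPairs F n := by
  rw [mem_tvPairs] at hp ⊢
  obtain ⟨h1, h2, h3⟩ := hp
  refine ⟨?_, ?_, ?_⟩
  · intro h0
    apply h1
    have := congrArg (fun v => (h⁻¹).1 *ᵥ v) h0
    change (h⁻¹).1 *ᵥ (h.1 *ᵥ p.1) = (h⁻¹).1 *ᵥ 0 at this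
    rwa [Matrix.mulVec_mulVec, inv_mul_val, Matrix.one_mulVec, Matrix.mulVec_zero] at this
  · intro h0
    apply h2
    have := congrArg (fun v => v ᵥ* h.1) h0
    change (p.2 ᵥ* (h⁻¹).1) ᵥ* h.1 = 0 ᵥ* h.1 at this
    rwa [Matrix.vecMul_vecMul, inv_mul_val, Matrix.vecMul_one, Matrix.zero_vecMul] at this
  · change (p.2 ᵥ* (h⁻¹).1) ⬝ᵥ (h.1 *ᵥ p.1) = 0
    rw [conj_dot', h3]

theorem pairEquiv_symm_mem (h : SpecialLinearGroup (Fin n) F) {p : (Fin n → F) × (Fin n → F)}
    (hp : p ∈ tvPairs F n) : (pairEquiv h).symm p ∈ tvPairs F n := by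
  have := pairEquiv_mem h⁻¹ hp
  simpa [pairEquiv] using this

/-- number of representations of `g` as a transvection -/
noncomputable def tvCount (g : SpecialLinearGroup (Fin n) F) : ℕ :=
  ((tvPairs F n).filter fun p => tr p.1 p.2 = g).card

theorem tvCount_conj (g h : SpecialLinearGroup (Fin n) F) :
    tvCount (h * g * h⁻¹) = tvCount g := by
  unfold tvCount
  symm
  refine Finset.card_bij' (fun p _ => pairEquiv h p) (fun p _ => (pairEquiv h).symm p)
    ?_ ?_ ?_ ?_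
  · intro p hp
    rw [Finset.mem_filter] at hp ⊢
    refine ⟨pairEquiv_mem h hp.1, ?_⟩
    change tr (h.1 *ᵥ p.1) (p.2 ᵥ* (h⁻¹).1) = _
    rw [← conj_tr, hp.2]
  · intro p hp
    rw [Finset.mem_filter] at hp ⊢
    refine ⟨pairEquiv_symm_mem h hp.1, ?_⟩
    have h1 : tr ((pairEquiv h) ((pairEquiv h).symm p)).1 ((pairEquiv h) ((pairEquiv h).symm p)).2
        = h * g * h⁻¹ := by
      rw [Equiv.apply_symm_apply]; exact hp.2
    change tr (h.1 *ᵥ ((pairEquiv h).symm p).1) (((pairEquiv h).symm p).2 ᵥ* (h⁻¹).1) = _ at h1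
    rw [← conj_tr] at h1
    exact mul_left_cancel (mul_right_cancel h1)
  · intro p _
    exact Equiv.symm_apply_apply _ _
  · intro p _
    exact Equiv.apply_symm_apply _ _

theorem card_tvPairs (hn : 1 ≤ n) :
    (tvPairs F n).card = (Fintype.card F ^ n - 1) * (Fintype.card F ^ (n - 1) - 1) := by
  classical
  have h1 : tvPairs F n = (Finset.univ.filter fun φ : Fin n → F => φ ≠ 0).biUnion
      (fun φ => (Finset.univ.filter fun u : Fin n → F => u ≠ 0 ∧ φ ⬝ᵥ u = 0).image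
        (fun u => (u, φ))) := by
    ext p
    simp only [mem_tvPairs, Finset.mem_biUnion, Finset.mem_filter, Finset.mem_univ, true_and,
      Finset.mem_image]
    constructor
    · rintro ⟨a, b, c⟩
      exact ⟨p.2, b, p.1, ⟨a, c⟩, rfl⟩
    · rintro ⟨φ, b, u, ⟨a, c⟩, rfl⟩
      exact ⟨a, b, c⟩
  rw [h1, Finset.card_biUnion]
  · have h2 : ∀ φ ∈ (Finset.univ.filter fun φ : Fin n → F => φ ≠ 0),
        ((Finset.univ.filter fun u : Fin n → F => u ≠ 0 ∧ φ ⬝ᵥ u = 0).image
          (fun u => (u, φ))).card = Fintype.card F ^ (n - 1) - 1 := by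
      intro φ hφ
      rw [Finset.mem_filter] at hφ
      rw [Finset.card_image_of_injective _ (fun a b hab => (Prod.ext_iff.mp hab).1)]
      have h3 := card_kr (F := F) hφ.2
      rw [Fintype.card_fin, Nat.card_eq_fintype_card (α := F)] at h3
      have h4 : (Finset.univ.filter fun u : Fin n → F => u ≠ 0 ∧ φ ⬝ᵥ u = 0) =
          (Finset.univ.filter fun u : Fin n → F => φ ⬝ᵥ u = 0).erase 0 := by
        ext u
        simp
      rw [h4, Finset.card_erase_of_mem (by simp), ← h3]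
      congr 1
      rw [Nat.card_eq_fintype_card, Fintype.card_subtype]
      congr 1
      ext u
      simp [mem_kr]
    rw [Finset.sum_congr rfl h2, Finset.sum_const, smul_eq_mul]
    congr 1
    rw [Finset.filter_ne', Finset.card_erase_of_mem (Finset.mem_univ _), Finset.card_univ,
      Fintype.card_fun, Fintype.card_fin]
  · intro φ _ ψ _ hne
    rw [Function.onFun, Finset.disjoint_left]
    intro p hp hp'
    simp only [Finset.mem_image] at hp hp'
    obtain ⟨u, _, rfl⟩ := hp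
    obtain ⟨u', _, h⟩ := hp'
    exact hne (Prod.ext_iff.mp h).2.symm

end aux

/-- RUNG I. Integrality of the central character on the class function
`g ↦ #{(u, φ) | u ≠ 0, φ ≠ 0, φ ⬝ᵥ u = 0, tr u φ = g}`. -/
theorem dvd_of_transvection_values {F : Type*} [Field F] [Fintype F] [DecidableEq F] (n : ℕ)
    (hn : 3 ≤ n) (χ : SpecialLinearGroup (Fin n) F → ℂ) (hχ : Cfsg.IsIrrCharacter _ χ) (D : ℕ)
    (hD : χ 1 = D)
    (ht : ∀ u φ : Fin n → F, u ≠ 0 → φ ≠ 0 → φ ⬝ᵥ u = 0 →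
      χ (tr u φ) = (D : ℂ) - (Fintype.card F : ℂ) ^ (n - 1)) :
    D ∣ (Fintype.card F ^ n - 1) * (Fintype.card F ^ (n - 1) - 1) * Fintype.card F ^ (n - 1) := by
  classical
  obtain ⟨k, ρ, hirr, rfl⟩ := hχ
  have hk : (k : ℂ) = D := by
    rw [← hD, Representation.char_one, Module.finrank_fin_fun]
  have hkD : k = D := by exact_mod_cast hk
  subst hkD
  have hk0 : k ≠ 0 := by
    have := Cfsg.Agent.Lib.Helper20.finrank_ne_zero_of_irr ρ hirr
    rwa [Module.finrank_fin_fun] at this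
  have hint := Cfsg.Agent.Lib.Helper4.isIntegral_central ρ (fun g => (tvCount g : ℂ))
    (fun g h => by simp only [tvCount_conj]) (fun g => isIntegral_natCast _)
  rw [Module.finrank_fin_fun] at hint
  have hsum : ∑ g, (tvCount g : ℂ) * ρ.character g =
      ((tvPairs F n).card : ℂ) * ((k : ℂ) - (Fintype.card F : ℂ) ^ (n - 1)) := by
    have h1 : ∀ g : SpecialLinearGroup (Fin n) F, (tvCount g : ℂ) * ρ.character g =
        ∑ p ∈ tvPairs F n, if tr p.1 p.2 = g then ρ.character (tr p.1 p.2) else 0 := by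
      intro g
      rw [← Finset.sum_filter, tvCount]
      rw [Finset.sum_congr rfl (g := fun _ => ρ.character g)
        (fun p hp => by rw [(Finset.mem_filter.mp hp).2])]
      rw [Finset.sum_const, nsmul_eq_mul]
    rw [Finset.sum_congr rfl (fun g _ => h1 g), Finset.sum_comm]
    rw [Finset.sum_congr rfl (g := fun _ => (k : ℂ) - (Fintype.card F : ℂ) ^ (n - 1))]
    · rw [Finset.sum_const, nsmul_eq_mul]
    · intro p hp
      rw [Finset.sum_ite_eq, if_pos (Finset.mem_univ _)]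
      rw [mem_tvPairs] at hp
      exact ht _ _ hp.1 hp.2.1 hp.2.2
  rw [hsum] at hint
  have hkc : (k : ℂ) ≠ 0 := by exact_mod_cast hk0
  have h2 : (((tvPairs F n).card * Fintype.card F ^ (n - 1) : ℕ) : ℂ) / (k : ℂ) =
      ((tvPairs F n).card : ℂ) -
        ((tvPairs F n).card : ℂ) * ((k : ℂ) - (Fintype.card F : ℂ) ^ (n - 1)) / (k : ℂ) := by
    push_cast
    field_simp
    ring
  have h3 : IsIntegral ℤ ((((tvPairs F n).card * Fintype.card F ^ (n - 1) : ℕ) : ℂ) / (k : ℂ)) := by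
    rw [h2]
    exact (isIntegral_natCast _).sub hint
  have h4 := Cfsg.Agent.Lib.Helper4.dvd_of_isIntegral_div hk0 h3
  rwa [card_tvPairs (by omega)] at h4

end Cfsg.Agent.Lib.Helper44.SLW
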