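import Mathlib
import Cfsg.Agent.Lib.Helper44.SLW.Core8
import Cfsg.Agent.Lib.Helper44.SLW.Arith
import Cfsg.Agent.Lib.Helper44.SLW.Integr
import Cfsg.Agent.Lib.Helper44.SLW.Exist

/-!
# Ladder SLWEIL: assembly
-/

set_option autoImplicit false
set_option linter.unusedSectionVars false

namespace Cfsg.Agent.Lib.Helper44.SLW

open Matrix Cfsg
open Cfsg.Agent.Lib.Helper5.MinIdx
open Cfsg.Agent.Lib.Helper18.AutPSL

theorem sl_min_degree {F : Type*} [Field F] [Fintype F] [DecidableEq F] (n : ℕ) (hn : 3 ≤ n)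
    (hex : (n, Fintype.card F) ≠ (3, 2) ∧ (n, Fintype.card F) ≠ (3, 4) ∧
      (n, Fintype.card F) ≠ (4, 2) ∧ (n, Fintype.card F) ≠ (4, 3))
    (k : ℕ) (ρ : Representation ℂ (SpecialLinearGroup (Fin n) F) (Fin k → ℂ)) (hρ : ρ.IsIrreducible)
    (hk : 2 ≤ k) : (Fintype.card F ^ n - Fintype.card F) / (Fintype.card F - 1) ≤ k := by
  classical
  obtain ⟨m, rfl⟩ : ∃ m, n = m + 2 := ⟨n - 2, by omega⟩
  have hm : 1 ≤ m := by omega
  have hq2 : 2 ≤ Fintype.card F := Fintype.one_lt_card
  obtain ⟨ψ, hψ⟩ := exists_prim_addChar'' F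
  have hχ : IsIrrCharacter _ ρ.character := ⟨k, ρ, hρ, rfl⟩
  have hcl := Cfsg.Agent.Lib.Helper20.isClassFunction_of_isCharacter
    (Cfsg.Agent.Lib.Helper20.isCharacter_of_isIrrCharacter hχ)
  obtain ⟨a, ha, hd, htr⟩ := exists_mult hm hψ (matRep ρ)
  have hQ : 1 ≤ Fintype.card F ^ (m + 1) := Nat.one_le_pow _ _ Fintype.card_pos
  have h1 : ρ.character 1 = k := by
    rw [← trace_matRep, map_one, trace_one, Fintype.card_fin]
  rcases Nat.lt_or_ge a 1 with ha0 | ha1
  · -- a = 0
    exfalso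
    have ha0 : a = 0 := by omega
    have h2 : matRep ρ (rad e0) = 1 := by
      have h3 : EE ψ (matRep ρ) 0 = 1 := by
        rw [← sum_EE (matRep ρ) hψ, ← Finset.add_sum_erase _ _ (Finset.mem_univ (0 : Fin (m + 1) → F)),
          Finset.sum_eq_zero, add_zero]
        intro c hc
        apply eq_zero_of_rank_eq_zero
        rw [ha c (Finset.ne_of_mem_erase hc), ha0]
      have h4 := rad_mul_EE (ψ := ψ) (matRep ρ) 0 (e0 : Fin (m + 1) → F)
      rwa [h3, mul_one, zero_dotProduct, AddChar.map_zero_eq_one, one_smul] at h4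
    have hρ1 : ∀ g, ρ g = 1 := fun g =>
      (LinearMap.toMatrixAlgEquiv' (R := ℂ) (n := Fin k)).injective
        (by rw [map_one]; exact map_eq_one_of_rad hm (matRep ρ) h2 g)
    have := degree_of_trivial_irr ρ hρ hρ1
    nlinarith
  rcases Nat.lt_or_ge 1 a with ha2 | ha2
  · -- a ≥ 2
    refine (arith_two _ (m + 1) hq2 (by omega)).trans ?_
    rw [hd]
    have : 2 * (Fintype.card F ^ (m + 1) - 1) ≤ a * (Fintype.card F ^ (m + 1) - 1) :=
      Nat.mul_le_mul_right _ ha2
    omega
  -- a = 1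
  have ha1' : a = 1 := by omega
  subst ha1'
  have hd' : (k : ℂ) = ((EE ψ (matRep ρ) 0).rank : ℂ) + ((Fintype.card F : ℂ) ^ (m + 1) - 1) := by
    have := congrArg (Nat.cast : ℕ → ℂ) hd
    push_cast [Nat.cast_sub hQ] at this
    rw [this]; ring
  have hA : A1 (matRep ρ) := by
    intro u φ hu hφ h
    obtain ⟨g, hg⟩ := exists_conj_rad hm u φ hu hφ h
    rw [trace_matRep, ← hg, hcl, ← trace_matRep, htr e0 e0_ne_zero, hd']
    push_cast
    ring
  have h0 : ∑ g, (matRep ρ g).trace = 0 := by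
    have hone : IsIrrCharacter (SpecialLinearGroup (Fin (m + 2)) F) (fun _ => 1) := by
      have := isIrrCharacter_monoidHom (1 : SpecialLinearGroup (Fin (m + 2)) F →* ℂ)
      exact this
    have hne : ρ.character ≠ fun _ => 1 := by
      intro h
      have := congrFun h 1
      rw [h1] at this
      have : k = 1 := by exact_mod_cast this
      omega
    have h2 := Cfsg.Agent.Lib.Helper20.classInner_irr_ne hχ hone hne
    unfold classInner at h2
    simp only [map_one, mul_one] at h2
    rcases mul_eq_zero.mp h2 with h3 | h3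
    · exfalso
      have : (Nat.card (SpecialLinearGroup (Fin (m + 2)) F) : ℂ) ≠ 0 := by
        have : 0 < Nat.card (SpecialLinearGroup (Fin (m + 2)) F) := Nat.card_pos
        exact_mod_cast this.ne'
      exact this (inv_eq_zero.mp h3)
    · rw [← h3]
      exact Finset.sum_congr rfl fun g _ => trace_matRep ρ g
  have hb : (Fintype.card F ^ (m + 1) - Fintype.card F) / (Fintype.card F - 1)
      ≤ (EE ψ (tw (matRep ρ)) 0).rank := by
    rcases Nat.lt_or_ge m 2 with hm2 | hm2
    · obtain rfl : m = 1 := by omega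
      have h3 := bound_eq3 hex hψ (matRep ρ) hA h0
      refine le_trans ?_ h3
      apply Nat.div_le_of_le_mul
      have : Fintype.card F ^ (1 + 1) = Fintype.card F * Fintype.card F := by ring
      rw [this, Nat.sub_mul, one_mul]
    · exact bound_ge3 hm2 hex hψ (matRep ρ) hA h0
  have hd2 := (hA.tw.rank hm hψ).2
  have hstep := arith_step (Fintype.card F) (m + 1) hq2 (by omega)
  have hge : (Fintype.card F ^ (m + 2) - Fintype.card F) / (Fintype.card F - 1) ≤ k + 1 := by
    rw [show m + 2 = m + 1 + 1 from rfl, hstep]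
    omega
  rcases Nat.lt_or_ge k ((Fintype.card F ^ (m + 2) - Fintype.card F) / (Fintype.card F - 1)) with hlt | hge'
  · exfalso
    have heq : k + 1 = (Fintype.card F ^ (m + 2) - Fintype.card F) / (Fintype.card F - 1) := by omega
    refine arith_excl (Fintype.card F) (m + 2) k hq2 hn heq ?_
    refine dvd_of_transvection_values (m + 2) hn ρ.character hχ k h1 ?_
    intro u φ hu hφ h
    rw [← trace_matRep, hA u φ hu hφ h]
    rfl
  · exact hge'

end Cfsg.Agent.Lib.Helper44.SLW
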